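import Cfsg.Agent.MS.BaseG

/-! notes/MS.md, section BaseB. -/

set_option autoImplicit false
set_option linter.unusedSectionVars false

namespace Cfsg.Agent.MS

open Subgroup H29 H42

variable {A G : Type*} [Group A] [Group G] [Finite G] {d : AD A} {ι : A →* G} {t u x : G}
  {O E Q : Subgroup G} {b : F4 → G} {η ν : F4}

local notation:max "𝐔[" l ", " f ", " k "]" => ι (AD.U d l f k)

theorem BB_ind {S : Set G} {P : G → Prop} (h1 : P 1) (hS : ∀ x ∈ S, ∀ y, P y → P (x * y)) {y : G}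
    (hy : y ∈ closure S) : P y := by
  have h2 : y ∈ Submonoid.closure S := by rwa [← closure_toSubmonoid_of_finite]
  clear hy
  induction h2 using Submonoid.closure_induction_left with
  | one => exact h1
  | mul_left x hx y _ ih => exact hS x hx y ih

omit [Finite G] in
theorem BB_card {α : Type*} {H : Subgroup G} (φ : α → G) (hφ : Function.Injective φ)
    (h : ∀ y, y ∈ H ↔ ∃ a, y = φ a) : Nat.card H = Nat.card α :=
  (Nat.card_congr (Equiv.ofBijective (fun a => (⟨φ a, (h _).2 ⟨a, rfl⟩⟩ : H))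
    ⟨fun _ _ e => hφ (congrArg Subtype.val e), fun y => ((h _).1 y.2).imp fun _ e => Subtype.ext e.symm⟩)).symm

theorem BB_norm {S : Set G} (h : ∀ s ∈ S, x * s * x⁻¹ ∈ closure S) : x ∈ normalizer (closure S : Set G) :=
  mem_normalizer_of_conj_mem fun _ hy => BB_ind (P := fun y => x * y * x⁻¹ ∈ closure S) (by simp)
    (fun s hs y hy => by simpa [mul_assoc] using mul_mem (h s hs) hy) hy

omit [Finite G] in
theorem BB_comm (h2 : ∀ y ∈ E, y * y = 1) {x y : G} (hx : x ∈ E) (hy : y ∈ E) : x * y = y * x := by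
  rw [← inv_eq_of_mul_eq_one_right (h2 _ (mul_mem hx hy)), mul_inv_rev, inv_eq_of_mul_eq_one_right (h2 _ hx),
    inv_eq_of_mul_eq_one_right (h2 _ hy)]

theorem BB_cen {S : Set G} (hc : ∀ s ∈ S, s * x = x * s) : ∀ y ∈ closure S, y * x = x * y :=
  fun _ hy => BB_ind (P := fun y => y * x = x * y) (by simp)
    (fun s hs y hy => by rw [mul_assoc, hy, ← mul_assoc, hc s hs, mul_assoc]) hy

theorem BB_elem {S : Set G} (h2 : ∀ x ∈ S, x * x = 1) (hc : ∀ x ∈ S, ∀ y ∈ S, x * y = y * x) :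
    ∀ x ∈ closure S, x * x = 1 := fun _ hy =>
  (BB_ind (P := fun y => y ∈ closure S ∧ y * y = 1) ⟨one_mem _, mul_one 1⟩ (fun s hs y hy =>
    ⟨mul_mem (subset_closure hs) hy.1, by
      rw [mul_assoc, ← mul_assoc y, BB_cen (fun s' hs' => hc s' hs' s hs) y hy.1, mul_assoc, hy.2, mul_one, h2 s hs]⟩)
    hy).2

theorem BB_dbl {H K : Subgroup G} (h : H ≤ K) (hx : x ∈ K) (hx' : x ∉ H) : 2 * Nat.card H ≤ Nat.card K := by
  obtain ⟨c, hc⟩ := card_dvd_of_le h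
  have h1 : Nat.card K ≠ Nat.card H := fun e => hx' (eq_of_le_of_card_ge h e.le ▸ hx)
  have h2 := Nat.card_pos (α := K)
  rcases c with _ | _ | c
  · omega
  · omega
  · rw [hc, mul_comm]; exact Nat.mul_le_mul_left _ (by omega)

section
omit [Finite G]

theorem Hy.BB_mul (h : Hy d ι t O) (l f k l' f' k' : F4) :
    𝐔[l, f, k] * 𝐔[l', f', k'] = 𝐔[l + l', f + f', k + k' + l * l * (l' * l') + l' * f] := by
  rw [← map_mul, h.af.mul]

theorem Hy.BB_F (h : Hy d ι t O) (l f k f' k' : F4) :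
    𝐔[l, f, k] * 𝐔[0, f', k'] = 𝐔[l, f + f', k + k'] := by
  simp [h.BB_mul]

theorem Hy.BB_ti (h : Hy d ι t O) : t⁻¹ = t := inv_eq_of_mul_eq_one_right h.t2

theorem BB_two (k : F4) : k + k = 0 := by revert k; decide

end

theorem Hy.BB_one (h : Hy d ι t O) : 𝐔[0, 0, 0] = 1 := by
  have := h.finA
  rw [h.af.U_one, map_one]

theorem Hy.BB_inj (h : Hy d ι t O) {l f k l' f' k' : F4} (e : 𝐔[l, f, k] = 𝐔[l', f', k']) :
    l = l' ∧ f = f' ∧ k = k' :=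
  have := h.finA
  h.af.U_inj (h.inj e)

theorem Hy.BB_sq (h : Hy d ι t O) (f k : F4) : 𝐔[0, f, k] * 𝐔[0, f, k] = 1 := by
  rw [h.BB_F, BB_two, BB_two, h.BB_one]

omit [Finite G] in
theorem Bf.BB_mul (hb : Bf d ι t b η) (h : Hy d ι t O) (l f k m l' f' k' m' : F4) :
    𝐔[l, f, k] * b m * (𝐔[l', f', k'] * b m') =
      𝐔[l + l', f + f', k + k' + l * l * (l' * l') + l' * f + η * (m * m) * (m' * m')] * b (m + m') := by
  rw [mul_assoc, ← mul_assoc (b m), hb.cU, mul_assoc, hb.mul, hb.cU, ← mul_assoc, ← mul_assoc, h.BB_mul, h.BB_F,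
    add_zero]

omit [Finite G] in
theorem Bf.BB_t (hb : Bf d ι t b η) (h : Hy d ι t O) (l f k m : F4) :
    t * (𝐔[l, f, k] * b m) * t⁻¹ = 𝐔[l, f, k] * b m * 𝐔[0, 0, m] := by
  rw [← mul_assoc, h.tc, mul_assoc, mul_assoc, ← mul_assoc t, hb.tb, mul_assoc]

theorem Bf.nf (hb : Bf d ι t b η) (h : Hy d ι t O) {l f k m l' f' k' m' : F4}
    (e : ι (d.U l f k) * b m = ι (d.U l' f' k') * b m') : l = l' ∧ f = f' ∧ k = k' ∧ m = m' := by
  have h1 := hb.BB_t h l f k m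
  rw [e, hb.BB_t h, mul_right_inj] at h1
  obtain rfl := (h.BB_inj h1).2.2
  have := h.BB_inj (mul_right_cancel e)
  exact ⟨this.1, this.2.1, this.2.2, rfl⟩

theorem Bf.nft (hb : Bf d ι t b η) (h : Hy d ι t O) (l f k m : F4) : ι (d.U l f k) * b m ≠ t := fun e => by
  have h1 := hb.BB_t h l f k m
  rw [e, mul_inv_cancel_right, left_eq_mul, ← h.BB_one] at h1
  obtain rfl := (h.BB_inj h1).2.2
  rw [hb.b0, mul_one] at e
  exact h.tr _ e

theorem Bf.b_inv (hb : Bf d ι t b η) (h : Hy d ι t O) (m : F4) :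
    (b m)⁻¹ = b m * ι (d.U 0 0 (η * m)) := by
  refine inv_eq_of_mul_eq_one_right ?_
  rw [← mul_assoc, hb.mul, BB_two, hb.b0, one_mul, h.BB_F, ← h.BB_one, add_zero]
  congr 2
  exact (by decide : ∀ η m : F4, η * (m * m) * (m * m) + η * m = 0) η m

theorem Bf.bt (hb : Bf d ι t b η) (h : Hy d ι t O) (m : F4) :
    b m * t * (b m)⁻¹ = t * ι (d.U 0 0 m) := by
  have h1 : t * b m = b m * 𝐔[0, 0, m] * t := by rw [← hb.tb, inv_mul_cancel_right]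
  rw [mul_inv_eq_iff_eq_mul, mul_assoc t, ← hb.cU, ← mul_assoc, h1, mul_assoc, mul_assoc, h.tc, ← mul_assoc (ι _),
    h.BB_sq, one_mul]

theorem Bf.comm (hb : Bf d ι t b η) (m m' : F4) : b m * b m' = b m' * b m := by
  rw [hb.mul, hb.mul, add_comm, mul_right_comm]

theorem Bf.mem_B0 (hb : Bf d ι t b η) (h : Hy d ι t O) {y : G} :
    y ∈ B0 d ι b ↔ ∃ k m, y = ι (d.U 0 0 k) * b m := by
  refine ⟨fun hy => BB_ind (P := fun y => ∃ k m, y = 𝐔[0, 0, k] * b m) ⟨0, 0, by rw [h.BB_one, hb.b0, mul_one]⟩ ?_ hy,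
    ?_⟩
  · rintro _ (⟨k, rfl⟩ | ⟨m, rfl⟩) _ ⟨k', m', rfl⟩
    · exact ⟨_, _, by rw [← mul_assoc, h.BB_F, add_zero]⟩
    · exact ⟨_, _, by simpa [h.BB_one] using hb.BB_mul h 0 0 0 m 0 0 k' m'⟩
  · rintro ⟨k, m, rfl⟩
    exact mul_mem (subset_closure (.inl ⟨k, rfl⟩)) (subset_closure (.inr ⟨m, rfl⟩))

theorem Bf.card_B0 (hb : Bf d ι t b η) (h : Hy d ι t O) : Nat.card (B0 d ι b) = 16 := by
  rw [BB_card (fun a : F4 × F4 => 𝐔[0, 0, a.1] * b a.2) (fun _ _ e => Prod.ext (hb.nf h e).2.2.1 (hb.nf h e).2.2.2)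
    fun y => by rw [hb.mem_B0 h, Prod.exists], Nat.card_eq_fintype_card]
  rfl

theorem Bf.mem_R0 (hb : Bf d ι t b η) (h : Hy d ι t O) {y : G} :
    y ∈ R0 d ι b ↔ ∃ l f k m, y = ι (d.U l f k) * b m := by
  refine ⟨fun hy => BB_ind (P := fun y => ∃ l f k m, y = 𝐔[l, f, k] * b m)
    ⟨0, 0, 0, 0, by rw [h.BB_one, hb.b0, mul_one]⟩ ?_ hy, ?_⟩
  · rintro _ (⟨l, f, k, rfl⟩ | ⟨m, rfl⟩) _ ⟨l', f', k', m', rfl⟩
    · exact ⟨_, _, _, _, by rw [← mul_assoc, h.BB_mul]⟩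
    · exact ⟨_, _, _, _, by simpa only [h.BB_one, one_mul] using hb.BB_mul h 0 0 0 m l' f' k' m'⟩
  · rintro ⟨l, f, k, m, rfl⟩
    exact mul_mem (subset_closure (.inl ⟨l, f, k, rfl⟩)) (subset_closure (.inr ⟨m, rfl⟩))

theorem Bf.card_R0 (hb : Bf d ι t b η) (h : Hy d ι t O) : Nat.card (R0 d ι b) = 256 := by
  rw [BB_card (fun a : F4 × F4 × F4 × F4 => 𝐔[a.1, a.2.1, a.2.2.1] * b a.2.2.2)
    (fun _ _ e => Prod.ext (hb.nf h e).1 (Prod.ext (hb.nf h e).2.1 (Prod.ext (hb.nf h e).2.2.1 (hb.nf h e).2.2.2)))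
    fun y => by simp only [hb.mem_R0 h, Prod.exists]]
  simp [Nat.card_eq_fintype_card, F4.card_eq]

theorem Bf.mem_RR (hb : Bf d ι t b η) (h : Hy d ι t O) {y : G} :
    y ∈ RR d ι t b ↔ y ∈ R0 d ι b ∨ y * t ∈ R0 d ι b := by
  have h1 : ∀ y ∈ R0 d ι b, t * y * t⁻¹ ∈ R0 d ι b := fun y hy => by
    obtain ⟨l, f, k, m, rfl⟩ := (hb.mem_R0 h).1 hy
    rw [hb.BB_t h]
    exact mul_mem hy (subset_closure (.inl ⟨0, 0, m, rfl⟩))
  have h2 : R0 d ι b ≤ RR d ι t b := closure_mono Set.subset_union_left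
  refine ⟨fun hy => BB_ind (P := fun y => y ∈ R0 d ι b ∨ y * t ∈ R0 d ι b) (.inl (one_mem _)) ?_ hy, ?_⟩
  · rintro x (hx | rfl) y (hy | hy)
    · exact .inl (mul_mem (subset_closure hx) hy)
    · exact .inr (mul_assoc x y t ▸ mul_mem (subset_closure hx) hy)
    · exact .inr (by simpa only [h.BB_ti] using h1 y hy)
    · exact .inl (by simpa [mul_assoc] using h1 _ hy)
  · have h3 : t ∈ RR d ι t b := subset_closure (.inr rfl)
    rintro (hy | hy)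
    exacts [h2 hy, (mul_mem_cancel_right h3).1 (h2 hy)]

theorem Bf.card_RR (hb : Bf d ι t b η) (h : Hy d ι t O) : Nat.card (RR d ι t b) = 512 := by
  have h1 : t ∉ R0 d ι b := fun ht => by
    obtain ⟨l, f, k, m, e⟩ := (hb.mem_R0 h).1 ht
    exact hb.nft h l f k m e.symm
  rw [BB_card (α := R0 d ι b ⊕ R0 d ι b) (Sum.elim (fun a => (a : G)) fun a => (a : G) * t⁻¹) ?_ fun y => ?_, Nat.card_sum,
    hb.card_R0 h]
  · rintro (a | a) (a' | a') e <;> simp only [Sum.elim_inl, Sum.elim_inr] at e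
    · exact congrArg _ (Subtype.ext e)
    · exact (h1 (inv_mem_iff.1 ((mul_mem_cancel_left a'.2).1 (e ▸ a.2)))).elim
    · exact (h1 (inv_mem_iff.1 ((mul_mem_cancel_left a.2).1 (e.symm ▸ a'.2)))).elim
    · exact congrArg _ (Subtype.ext (mul_right_cancel e))
  · rw [hb.mem_RR h]
    simp only [Sum.exists, Sum.elim_inl, Sum.elim_inr, Subtype.exists, exists_prop, eq_mul_inv_iff_mul_eq,
      exists_eq_right']

theorem Bf.RO (hb : Bf d ι t b η) (h : Hy d ι t O) {n : G} (hn : n ∈ HV d ι) {k : F4}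
    (e : n * t * n⁻¹ = t * ι (d.U 0 0 k)) : ∃ o ∈ O, ∃ y ∈ RR d ι t b, n = y * o := by
  obtain ⟨o, ho, l, f, k', h1⟩ := h.cVt (y := (b k)⁻¹ * n) (by
      rw [← hb.bt h] at e
      calc _ = (b k)⁻¹ * (n * t * n⁻¹) * n := by group
        _ = _ := by rw [e]; group) fun j => by
    rw [mul_assoc, ← hn _ ⟨j, rfl⟩, ← mul_assoc, ← mul_assoc, (show Commute (b k) _ from hb.cU k 0 0 j).inv_left.eq]
  have h2 : (𝐔[l, f, k'])⁻¹ * o * 𝐔[l, f, k'] ∈ O := by simpa using h.On (d.U l f k')⁻¹ o ho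
  have h3 : b k ∈ RR d ι t b := subset_closure (.inl (.inr ⟨k, rfl⟩))
  have h4 : 𝐔[l, f, k'] ∈ RR d ι t b := subset_closure (.inl (.inl ⟨l, f, k', rfl⟩))
  have h5 : t ∈ RR d ι t b := subset_closure (.inr rfl)
  rcases h1 with h1 | h1 <;> rw [inv_mul_eq_iff_eq_mul] at h1
  · exact ⟨_, h2, _, mul_mem h3 h4, by rw [h1]; group⟩
  · exact ⟨_, h2, _, mul_mem h3 (mul_mem h5 h4), by rw [h1, ← mul_assoc o, h.Ot o ho]; group⟩

theorem Bf.g_sq (hb : Bf d ι t b 1) (h : Hy d ι t O) : gE d ι b * gE d ι b = ι (d.U 1 1 0) := by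
  rw [gE, conj_mul, hb.mul, BB_two, hb.b0, one_mul, ← h.af.py1, map_mul, map_mul, map_inv]
  rfl

theorem Bf.g_sq0 (hb : Bf d ι t b 0) (h : Hy d ι t O) : gE d ι b * gE d ι b = 1 := by
  rw [gE, conj_mul, hb.mul, BB_two, hb.b0, one_mul, zero_mul, zero_mul, h.BB_one, mul_one, mul_inv_cancel]

theorem Bf.g_t (hb : Bf d ι t b η) (h : Hy d ι t O) :
    gE d ι b * t * (gE d ι b)⁻¹ = t * ι (d.U 1 1 0) := by
  have h1 : (ι d.p)⁻¹ * t * ι d.p = t := by rw [mul_assoc, h.tc, inv_mul_cancel_left]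
  calc _ = ι d.p * (b F4.v * ((ι d.p)⁻¹ * t * ι d.p) * (b F4.v)⁻¹) * (ι d.p)⁻¹ := by rw [gE]; group
    _ = _ := by rw [h1, hb.bt h, ← h.af.py1, map_mul, map_mul, map_inv, ← mul_assoc, ← h.tc]; group

omit [Finite G] in
theorem Bf.BB_g (hb : Bf d ι t b η) {x : A} {l f k : F4} (e : d.p * d.U l f k * d.p⁻¹ = x) :
    gE d ι b * ι x = ι x * gE d ι b := by
  rw [← e, map_mul, map_mul, map_inv, gE, conj_mul, conj_mul, hb.cU]

theorem AF.BB_py3 (h : AF d) : d.p * d.U 1 1 F4.v * d.p⁻¹ = d.U 0 0 F4.v := by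
  rw [← h.py2, ← h.py1]
  calc _ = d.p * d.p * d.p * d.U 0 0 F4.v * (d.p * d.p * d.p)⁻¹ := by group
    _ = _ := by rw [h.p3]; group

theorem Hy.BB_E (h : Hy d ι t O) (hz : Commute x 𝐔[0, 0, 1]) (h1 : Commute x 𝐔[0, 0, F4.v])
    (h2 : Commute x 𝐔[1, 1, 0]) (he : Commute x 𝐔[F4.w, F4.w, 0]) (l k : F4) : Commute x 𝐔[l, l, k] := by
  have hC : ∀ k, Commute x 𝐔[0, 0, k] := fun k => by
    have := hz.mul_right h1
    rw [h.BB_mul] at this
    cases k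
    exacts [(show 𝐔[0, 0, F4.o] = 1 from h.BB_one).symm ▸ Commute.one_right x, hz, this, h1]
  have hl : ∃ k, Commute x 𝐔[l, l, k] := by
    have := h2.mul_right he
    rw [h.BB_mul] at this
    cases l
    exacts [⟨_, hz⟩, ⟨_, h2⟩, ⟨_, he⟩, ⟨_, this⟩]
  obtain ⟨k', hl⟩ := hl
  have := hl.mul_right (hC (k' + k))
  rwa [h.BB_F, add_zero, ← add_assoc, BB_two, zero_add] at this

theorem Bf.g_s (hb : Bf d ι t b η) (h : Hy d ι t O) : gE d ι b * ι d.s = ι d.s * gE d ι b := hb.BB_g h.af.pa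

theorem Bf.g_E (hb : Bf d ι t b η) (h : Hy d ι t O) (l k : F4) :
    gE d ι b * ι (d.U l l k) = ι (d.U l l k) * gE d ι b :=
  h.BB_E (hb.BB_g h.af.pz) (hb.BB_g h.af.BB_py3) (hb.BB_g h.af.py1) (hb.BB_g h.af.pe) l k

theorem Bf.g_b1 (hb : Bf d ι t b η) : gE d ι b * b 1 = b 1 * gE d ι b :=
  have h1 : Commute (ι d.p) (b 1) := hb.pb
  (h1.mul_left (hb.comm _ _)).mul_left h1.inv_left

/-- the product of the three `p`-conjugates of `b ω²` -/
theorem Bf.g_N {κ : A →* G} (hb : Bf d κ t b η) (h : Hy d κ t ⊥) : ∃ l k, (l = 0 ∨ l = F4.w) ∧ k * k = k ∧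
    b F4.v * gE d κ b * ((κ d.p)⁻¹ * b F4.v * κ d.p) = κ (d.U l l k) := by
  have := h.finA
  have p3 : κ d.p * κ d.p * κ d.p = 1 := by rw [← map_mul, ← map_mul, h.af.p3, map_one]
  have hp : Commute (κ d.p) (b 1) := hb.pb
  set g3 := (κ d.p)⁻¹ * b F4.v * κ d.p with hg3
  have c3 : ∀ {x : A} {l f k : F4}, d.p * x * d.p⁻¹ = d.U l f k → Commute g3 (κ x) := fun {x l f k} e => by
    have : κ x = (κ d.p)⁻¹ * κ (d.U l f k) * κ d.p := by rw [← e, map_mul, map_mul, map_inv]; group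
    have h2 : Commute (b F4.v) (κ (d.U l f k)) := hb.cU _ _ _ _
    simpa [hg3, this, mul_assoc] using h2.map (MulAut.conj (κ d.p)⁻¹)
  have e3 := h.BB_E (c3 h.af.pz) (c3 h.af.py1) (c3 h.af.py2) (c3 h.af.pe)
  have cN : ∀ l k, Commute (b F4.v * gE d κ b * g3) (κ (d.U l l k)) := fun l k =>
    Commute.mul_left (Commute.mul_left (hb.cU _ _ _ _) (hb.g_E h l k)) (e3 l k)
  have t3 : g3 * t * g3⁻¹ = t * κ (d.U 1 1 F4.v) := by
    have h1 : κ d.p * t * (κ d.p)⁻¹ = t := by rw [← h.tc, mul_inv_cancel_right]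
    calc _ = (κ d.p)⁻¹ * (b F4.v * (κ d.p * t * (κ d.p)⁻¹) * (b F4.v)⁻¹) * κ d.p := by rw [hg3]; group
      _ = (κ d.p)⁻¹ * (t * κ d.p) * κ (d.U 1 1 F4.v) := by
        rw [h1, hb.bt h, ← h.af.BB_py3, map_mul, map_mul, map_inv]; group
      _ = _ := by rw [h.tc, inv_mul_cancel_left]
  have tN : b F4.v * gE d κ b * g3 * t = t * (b F4.v * gE d κ b * g3) := by
    rw [← mul_inv_eq_iff_eq_mul]
    calc _ = b F4.v * (gE d κ b * (g3 * t * g3⁻¹) * (gE d κ b)⁻¹) * (b F4.v)⁻¹ := by group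
      _ = b F4.v * (gE d κ b * t * (gE d κ b)⁻¹ * (gE d κ b * κ (d.U 1 1 F4.v) * (gE d κ b)⁻¹)) * (b F4.v)⁻¹ := by
        rw [t3]; group
      _ = b F4.v * t * (b F4.v)⁻¹ * (b F4.v * κ (d.U 0 0 F4.v) * (b F4.v)⁻¹) := by
        rw [hb.g_E h, mul_inv_cancel_right, hb.g_t h, mul_assoc t, h.BB_mul]
        exact conj_mul.symm
      _ = _ := by rw [hb.bt h, hb.cU, mul_inv_cancel_right, mul_assoc, h.BB_sq, mul_one]
  obtain ⟨o, ho, l, f, k, e⟩ := h.cVt tN (cN 0)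
  rw [mem_bot.1 ho, one_mul, one_mul] at e
  have bN : Commute (b F4.v * gE d κ b * g3) (b 1) :=
    Commute.mul_left (Commute.mul_left (hb.comm _ _) hb.g_b1) ((hp.inv_left.mul_left (hb.comm _ _)).mul_left hp)
  rcases e with e | e
  · have h1 := (cN 1 0).eq
    rw [e, h.BB_mul, h.BB_mul] at h1
    obtain rfl : l = f := (by decide : ∀ l f k : F4, k + 0 + l * l * (1 * 1) + 1 * f = 0 + k + 1 * 1 * (l * l) + l * 1 →
      l = f) l f k (h.BB_inj h1).2.2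
    have h2 : κ d.p * κ (d.U l l k) = κ (d.U l l k) * κ d.p := by
      have h3 : κ d.p * κ d.p = (κ d.p)⁻¹ := eq_inv_of_mul_eq_one_left p3
      rw [← mul_inv_eq_iff_eq_mul, ← mul_right_inj (b F4.v), hb.cU, ← e]
      calc _ = b F4.v * gE d κ b * (κ d.p * κ d.p * b F4.v * (κ d.p * κ d.p)⁻¹) * b F4.v := by rw [gE, hg3]; group
        _ = _ := by rw [h3, inv_inv]
    rw [← map_mul, ← map_mul] at h2
    obtain ⟨h3, h4⟩ := h.af.cpU (h.inj h2)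
    exact ⟨l, k, h3.imp And.left And.left, h4, e⟩
  · have h1 := bN.eq
    rw [e, mul_assoc, ← hb.cU, ← mul_assoc, ← mul_assoc, mul_left_inj, ← mul_inv_eq_iff_eq_mul, hb.tb, mul_eq_left,
      ← h.BB_one] at h1
    exact absurd (h.BB_inj h1).2.2 (by decide)

theorem Wf.BB_uF (h : Wf d ι t O b u) (f k : F4) : u * 𝐔[0, f, k] = 𝐔[0, f, k] * u := by
  rw [← mul_inv_eq_iff_eq_mul, h.uU, h.bf.b0, mul_one]

theorem Wf.BB_uN (h : Wf d ι t O b u) (f k m : F4) : u * (𝐔[0, f, k] * b m) = 𝐔[0, f, k] * b m * u := by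
  rw [← mul_assoc, h.BB_uF, mul_assoc, h.ub, mul_assoc]

theorem Wf.BB_mul (h : Wf d ι t O b u) (f k m f' k' m' : F4) :
    𝐔[0, f, k] * b m * (𝐔[0, f', k'] * b m') = 𝐔[0, f + f', k + k'] * b (m + m') := by
  simp [h.bf.BB_mul h.hy]

theorem Bf.BB_Nt (hb : Bf d ι t b η) (h : Hy d ι t O) (l f k m : F4) :
    𝐔[l, f, k] * b m * t * (𝐔[l, f, k] * b m)⁻¹ = t * 𝐔[0, 0, m] := by
  rw [← hb.cU, mul_assoc (b m), ← h.tc, ← hb.bt h]
  group

theorem Wf.BB_Nut (h : Wf d ι t O b u) (f k m : F4) :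
    𝐔[0, f, k] * b m * u * t * (𝐔[0, f, k] * b m * u)⁻¹ = t * 𝐔[0, 1, m] := by
  have h1 : 𝐔[0, f, k] * b m * 𝐔[0, 1, 0] = 𝐔[0, 1, 0] * (𝐔[0, f, k] * b m) := by
    rw [mul_assoc, h.bf.cU, ← mul_assoc, ← mul_assoc, h.hy.BB_F, h.hy.BB_F, add_comm f, add_comm k]
  calc _ = 𝐔[0, f, k] * b m * (u * t * u⁻¹) * (𝐔[0, f, k] * b m)⁻¹ := by group
    _ = _ := by
      rw [h.ut, ← conj_mul, h1, mul_inv_cancel_right, h.bf.BB_Nt h.hy, mul_assoc, h.hy.BB_F, zero_add, add_zero]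

theorem Wf.BB_F (f k : F4) : 𝐔[0, f, k] ∈ E7 d ι b u := subset_closure (.inl (.inl ⟨f, k, rfl⟩))

theorem Wf.BB_b (m : F4) : b m ∈ E7 d ι b u := subset_closure (.inl (.inr ⟨m, rfl⟩))

theorem Wf.BB_u : u ∈ E7 d ι b u := subset_closure (.inr rfl)

theorem Wf.mem_E7 (h : Wf d ι t O b u) {y : G} :
    y ∈ E7 d ι b u ↔ ∃ f k m, y = ι (d.U 0 f k) * b m ∨ y = ι (d.U 0 f k) * b m * u := by
  refine ⟨fun hy => BB_ind (P := fun y => ∃ f k m, y = 𝐔[0, f, k] * b m ∨ y = 𝐔[0, f, k] * b m * u)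
    ⟨0, 0, 0, .inl (by rw [h.hy.BB_one, h.bf.b0, mul_one])⟩ ?_ hy, ?_⟩
  · have key : ∀ f k m y, (∃ f k m, y = 𝐔[0, f, k] * b m ∨ y = 𝐔[0, f, k] * b m * u) →
        ∃ f' k' m', 𝐔[0, f, k] * b m * y = 𝐔[0, f', k'] * b m' ∨ 𝐔[0, f, k] * b m * y = 𝐔[0, f', k'] * b m' * u := by
      rintro f k m _ ⟨f', k', m', rfl | rfl⟩
      · exact ⟨_, _, _, .inl (h.BB_mul ..)⟩
      · exact ⟨_, _, _, .inr (by rw [← mul_assoc _ _ u, h.BB_mul])⟩
    rintro _ ((⟨f, k, rfl⟩ | ⟨m, rfl⟩) | rfl) y hy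
    · simpa only [h.bf.b0, mul_one] using key f k 0 y hy
    · simpa only [h.hy.BB_one, one_mul] using key 0 0 m y hy
    · obtain ⟨f, k, m, rfl | rfl⟩ := hy
      · exact ⟨f, k, m, .inr (h.BB_uN ..)⟩
      · exact ⟨f, k, m, .inl (by rw [← mul_assoc, h.BB_uN, mul_assoc, h.u2, mul_one])⟩
  · rintro ⟨f, k, m, rfl | rfl⟩
    exacts [mul_mem (BB_F f k) (BB_b m), mul_mem (mul_mem (BB_F f k) (BB_b m)) BB_u]

theorem Wf.BB_inj (h : Wf d ι t O b u) : Function.Injective (Sum.elim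
    (fun a : F4 × F4 × F4 => 𝐔[0, a.1, a.2.1] * b a.2.2) fun a : F4 × F4 × F4 => 𝐔[0, a.1, a.2.1] * b a.2.2 * u) := by
  have key : ∀ f k m f' k' m', 𝐔[0, f, k] * b m ≠ 𝐔[0, f', k'] * b m' * u := fun f k m f' k' m' e => by
    have h1 := h.bf.BB_Nt h.hy 0 f k m
    rw [e, h.BB_Nut, mul_right_inj] at h1
    exact one_ne_zero (h.hy.BB_inj h1).2.1
  rintro (a | a) (a' | a') e <;> simp only [Sum.elim_inl, Sum.elim_inr, mul_left_inj] at e
  · have := h.bf.nf h.hy e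
    exact congrArg _ (Prod.ext this.2.1 (Prod.ext this.2.2.1 this.2.2.2))
  · exact absurd e (key _ _ _ _ _ _)
  · exact absurd e.symm (key _ _ _ _ _ _)
  · have := h.bf.nf h.hy e
    exact congrArg _ (Prod.ext this.2.1 (Prod.ext this.2.2.1 this.2.2.2))

theorem Wf.card_E7 (h : Wf d ι t O b u) : Nat.card (E7 d ι b u) = 128 := by
  rw [BB_card _ h.BB_inj fun y => by
    simp only [h.mem_E7, Sum.exists, Sum.elim_inl, Sum.elim_inr, Prod.exists, exists_or]]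
  simp [Nat.card_eq_fintype_card, F4.card_eq]

theorem Wf.sq_E7 (h : Wf d ι t O b u) : ∀ y ∈ E7 d ι b u, y * y = 1 := fun y hy => by
  have key : ∀ f k m, 𝐔[0, f, k] * b m * (𝐔[0, f, k] * b m) = 1 := fun f k m => by
    rw [h.BB_mul, BB_two, BB_two, BB_two, h.hy.BB_one, h.bf.b0, mul_one]
  obtain ⟨f, k, m, rfl | rfl⟩ := h.mem_E7.1 hy
  · exact key f k m
  · rw [mul_assoc _ u, ← mul_assoc u, h.BB_uN, mul_assoc _ u, h.u2, mul_one, key]

theorem Wf.cen_E7 (h : Wf d ι t O b u) {y : G} (hy : y ∈ E7 d ι b u) (e : y * t = t * y) :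
    ∃ f k, y = ι (d.U 0 f k) := by
  rw [← mul_inv_eq_iff_eq_mul] at e
  obtain ⟨f, k, m, rfl | rfl⟩ := h.mem_E7.1 hy
  · rw [h.bf.BB_Nt h.hy, mul_eq_left, ← h.hy.BB_one] at e
    exact ⟨f, k, by rw [(h.hy.BB_inj e).2.2, h.bf.b0, mul_one]⟩
  · rw [h.BB_Nut, mul_eq_left, ← h.hy.BB_one] at e
    exact absurd (h.hy.BB_inj e).2.1 one_ne_zero

theorem Wf.tr_E7 (h : Wf d ι t O b u) {f : F4} (hf : f * f = f) (k : F4) :
    ∃ y ∈ E7 d ι b u, y * t * y⁻¹ = t * ι (d.U 0 f k) := by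
  rcases (by decide : ∀ f : F4, f * f = f → f = 0 ∨ f = 1) f hf with rfl | rfl
  · exact ⟨_, BB_b k, h.bf.bt h.hy k⟩
  · exact ⟨_, mul_mem (mul_mem (BB_F 0 0) (BB_b k)) BB_u, h.BB_Nut 0 0 k⟩

theorem Wf.n_E7 (h : Wf d ι t O b u) : t ∈ normalizer (E7 d ι b u : Set G) ∧
    (∀ l f k, ι (d.U l f k) ∈ normalizer (E7 d ι b u : Set G)) ∧
    ι d.s ∈ normalizer (E7 d ι b u : Set G) ∧ ι d.r ∈ normalizer (E7 d ι b u : Set G) ∧
    gE d ι b ∈ normalizer (E7 d ι b u : Set G) := by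
  have := h.hy.finA
  have key : ∀ x, (∀ f k, x * 𝐔[0, f, k] * x⁻¹ ∈ E7 d ι b u) → (∀ m, x * b m * x⁻¹ ∈ E7 d ι b u) →
      x * u * x⁻¹ ∈ E7 d ι b u → x ∈ normalizer (E7 d ι b u : Set G) := fun x h1 h2 h3 => BB_norm <| by
    rintro _ ((⟨f, k, rfl⟩ | ⟨m, rfl⟩) | rfl)
    exacts [h1 f k, h2 m, h3]
  refine ⟨key _ (fun f k => ?_) (fun m => ?_) ?_, fun l f k => key _ (fun f k => ?_) (fun m => ?_) ?_,
    key _ (fun f k => ?_) (fun m => ?_) ?_, key _ (fun f k => ?_) (fun m => ?_) ?_,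
    key _ (fun f k => ?_) (fun m => ?_) ?_⟩
  · rw [h.hy.tc, mul_inv_cancel_right]; exact BB_F f k
  · rw [h.bf.tb]; exact mul_mem (BB_b m) (BB_F 0 m)
  · have : t * u * t⁻¹ = t⁻¹ * (u * t * u⁻¹) * u := by rw [h.hy.BB_ti]; group
    rw [this, h.ut, inv_mul_cancel_left]
    exact mul_mem (BB_F 1 0) BB_u
  · rw [← map_inv, ← map_mul, ← map_mul, h.hy.af.U_conj]; exact BB_F _ _
  · rw [← h.bf.cU, mul_inv_cancel_right]; exact BB_b m
  · have : 𝐔[l, f, k] * u * (𝐔[l, f, k])⁻¹ = (b l)⁻¹ * u := by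
      rw [eq_inv_mul_iff_mul_eq, ← mul_assoc, ← mul_assoc, h.bf.cU, ← h.uU]; group
    rw [this]
    exact mul_mem (inv_mem (BB_b l)) BB_u
  · rw [← map_inv, ← map_mul, ← map_mul, h.hy.af.sU, mul_zero]; exact BB_F _ _
  · rw [h.bf.sb]; exact BB_b _
  · rw [← h.us, mul_inv_cancel_right]; exact BB_u
  · rw [← map_inv, ← map_mul, ← map_mul, h.hy.af.rU, mul_zero]; exact BB_F _ _
  · rw [h.bf.rb]; exact BB_b _
  · rw [← h.ur, mul_inv_cancel_right]; exact BB_u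
  · obtain ⟨k', e⟩ := h.gF f k
    rw [e]; exact mul_mem (BB_F _ _) (BB_b _)
  · rw [h.gb, mul_inv_cancel_right]; exact BB_b m
  · obtain ⟨k', e⟩ := h.gu
    rw [e]; exact mul_mem (mul_mem BB_u (BB_b _)) (BB_F _ _)

theorem Wf.r_E7 (h : Wf d ι t O b u) :
    ∀ y ∈ E7 d ι b u, ∃ y' ∈ B0 d ι b, ι d.r * y * (ι d.r)⁻¹ = y * y' := fun y hy => by
  have key : ∀ f k m, ι d.r * (𝐔[0, f, k] * b m) * (ι d.r)⁻¹ =
      𝐔[0, f, k] * b m * (𝐔[0, 0, k + F4.w * k] * b (m + F4.w * m)) := fun f k m => by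
    rw [h.BB_mul, ← conj_mul, h.bf.rb, ← map_inv, ← map_mul, ← map_mul, h.hy.af.rU, mul_zero, add_zero, ← add_assoc,
      ← add_assoc, BB_two, BB_two, zero_add, zero_add]
  obtain ⟨f, k, m, rfl | rfl⟩ := h.mem_E7.1 hy
  · exact ⟨_, (h.bf.mem_B0 h.hy).2 ⟨_, _, rfl⟩, key f k m⟩
  · refine ⟨_, (h.bf.mem_B0 h.hy).2 ⟨k + F4.w * k, m + F4.w * m, rfl⟩, ?_⟩
    rw [← conj_mul, key, ← h.ur, mul_inv_cancel_right, mul_assoc _ u, h.BB_uN, ← mul_assoc _ _ u]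

/-- an elementary abelian group containing `E7` meets `C(t)` in `F` -/
theorem Wf.cen_E (h : Wf d ι t O b u) (hle : E7 d ι b u ≤ E) (h2 : ∀ y ∈ E, y * y = 1) {y : G}
    (hy : y ∈ E) (e : y * t = t * y) : ∃ f k, y = ι (d.U 0 f k) := by
  have hF : ∀ f k, 𝐔[0, f, k] ∈ E := fun f k => hle (BB_F f k)
  have h1 : y ∈ E5 d ι t := by
    by_contra h1
    have h3 := BB_dbl (K := closure (insert y ({x | ∃ f k, x = 𝐔[0, f, k]} ∪ {t})))
      (closure_mono (Set.subset_insert _ _)) (subset_closure (Set.mem_insert _ _)) h1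
    have h4 : ∀ s ∈ insert y ({x | ∃ f k, x = 𝐔[0, f, k]} ∪ {t}), s * t = t * s := by
      rintro _ (rfl | ⟨f, k, rfl⟩ | rfl)
      exacts [e, (h.hy.tc _).symm, rfl]
    have h5 : ∀ s ∈ insert y ({x | ∃ f k, x = 𝐔[0, f, k]} ∪ {t}), s ∈ E ∨ s = t := by
      rintro _ (rfl | ⟨f, k, rfl⟩ | rfl)
      exacts [.inl hy, .inl (hF f k), .inr rfl]
    have h6 := h.hy.rank (BB_cen h4) (BB_elem (fun s hs => (h5 s hs).elim (h2 s) (· ▸ h.hy.t2)) fun s hs s' hs' => by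
      rcases h5 s hs with a | rfl
      · rcases h5 s' hs' with a' | rfl
        exacts [BB_comm h2 a a', h4 s hs]
      · exact (h4 s' hs').symm)
    rw [show Nat.card (closure ({x | ∃ f k, x = 𝐔[0, f, k]} ∪ {t})) = 32 from h.hy.card_E5] at h3
    omega
  obtain ⟨f, k, rfl | rfl⟩ := h.hy.mem_E5.1 h1
  · exact ⟨f, k, rfl⟩
  · have h3 := BB_comm h2 ((mul_mem_cancel_right (hF f k)).1 hy) (hle (BB_b 1))
    rw [← mul_inv_eq_iff_eq_mul, h.bf.tb, mul_eq_left, ← h.hy.BB_one] at h3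
    exact absurd (h.hy.BB_inj h3).2.2 one_ne_zero

theorem Wf.ns (h : Wf d ι t O b u) (hle : E7 d ι b u ≤ E) (h2 : ∀ y ∈ E, y * y = 1) {y : G}
    (hy : y ∈ E) : ¬ IsConj t (y * ι d.s) := fun hc => by
  have := h.hy.finA
  have s2 : ι d.s * ι d.s = 1 := by rw [← map_mul, h.hy.af.s2, map_one]
  have w2 : y * ι d.s * (y * ι d.s) = 1 := by
    obtain ⟨c, hc⟩ := isConj_iff.1 hc
    rw [← hc, conj_mul, h.hy.t2, mul_one, mul_inv_cancel]
  have ys : Commute y (ι d.s) := by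
    change _ = _
    rw [← inv_eq_of_mul_eq_one_right w2, mul_inv_rev, inv_eq_of_mul_eq_one_right s2,
      inv_eq_of_mul_eq_one_right (h2 y hy)]
  have sU : ∀ f k, ι d.s * 𝐔[0, f, k] * (ι d.s)⁻¹ = 𝐔[0, f * f, k * k] := fun f k => by
    rw [← map_inv, ← map_mul, ← map_mul, h.hy.af.sU, mul_zero]
  let S0 : Set G := {𝐔[0, 0, 1], 𝐔[0, 1, 0], b 1, u}
  have a1 : ∀ x ∈ S0, x ∈ E7 d ι b u ∧ Commute x (ι d.s) := by
    rintro _ (rfl | rfl | rfl | rfl)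
    · exact ⟨BB_F _ _, (mul_inv_eq_iff_eq_mul.1 (sU 0 1)).symm⟩
    · exact ⟨BB_F _ _, (mul_inv_eq_iff_eq_mul.1 (sU 1 0)).symm⟩
    · exact ⟨BB_b _, (mul_inv_eq_iff_eq_mul.1 (h.bf.sb 1)).symm⟩
    · exact ⟨BB_u, h.us⟩
  have a2 : closure S0 ≤ E7 d ι b u := (closure_le _).2 fun x hx => (a1 x hx).1
  have a3 : 16 ≤ Nat.card (closure S0) := by
    let φ : Bool → F4 := fun i => if i then 1 else 0
    have hφ : Function.Injective φ := by decide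
    have m : ∀ i j k, 𝐔[0, φ i, φ j] * b (φ k) ∈ closure S0 := fun i j k => by
      rw [← zero_add (φ j), ← add_zero (φ i), ← h.hy.BB_F]
      refine mul_mem (mul_mem ?_ ?_) ?_
      · cases i
        exacts [(show 𝐔[0, φ false, 0] = 1 from h.hy.BB_one) ▸ one_mem _, subset_closure (.inr (.inl rfl))]
      · cases j
        exacts [(show 𝐔[0, 0, φ false] = 1 from h.hy.BB_one) ▸ one_mem _, subset_closure (.inl rfl)]
      · cases k
        exacts [(show b (φ false) = 1 from h.bf.b0) ▸ one_mem _, subset_closure (.inr (.inr (.inl rfl)))]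
    have hψ : Function.Injective (Prod.map φ (Prod.map φ φ)) := hφ.prodMap (hφ.prodMap hφ)
    have := Nat.card_le_card_of_injective (β := closure S0) (fun a => ⟨_, ?_⟩) fun _ _ e =>
      (h.BB_inj.comp (hψ.sumMap hψ)) (congrArg Subtype.val e)
    · simpa using this
    · rcases a with ⟨i, j, k⟩ | ⟨i, j, k⟩
      exacts [m i j k, mul_mem (m i j k) (subset_closure (.inr (.inr (.inr rfl))))]
  have a4 : ι d.s ∉ closure S0 := fun hs => by
    obtain ⟨f, k, e⟩ := h.cen_E7 (a2 hs) (h.hy.tc _).symm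
    exact h.hy.af.s_ne _ _ _ (h.hy.inj e).symm
  have a5 := BB_dbl (K := closure (insert (ι d.s) S0)) (closure_mono (Set.subset_insert _ _))
    (subset_closure (Set.mem_insert _ _)) a4
  have a6 : ∀ x ∈ insert (ι d.s) S0, x * x = 1 ∧ Commute x (y * ι d.s) ∧ ∀ x' ∈ insert (ι d.s) S0, Commute x x' := by
    rintro x (rfl | hx)
    · exact ⟨s2, ys.symm.mul_right rfl, fun x' hx' => hx'.elim (· ▸ rfl) fun a => (a1 x' a).2.symm⟩
    · exact ⟨h.sq_E7 x (a1 x hx).1, .mul_right (BB_comm h2 (hle (a1 x hx).1) hy) (a1 x hx).2, fun x' hx' =>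
        hx'.elim (· ▸ (a1 x hx).2) fun a => BB_comm h.sq_E7 (a1 x hx).1 (a1 x' a).1⟩
  have key : ∀ x, x * x = 1 → Commute x (y * ι d.s) → (∀ x' ∈ insert (ι d.s) S0, Commute x x') →
      x ∈ closure (insert (ι d.s) S0) := fun x h1 h3 h4 => by
    by_contra h5
    have h6 := BB_dbl (K := closure (insert x (insert (ι d.s) S0))) (closure_mono (Set.subset_insert _ _))
      (subset_closure (Set.mem_insert _ _)) h5
    refine h.hy.not_conj (E := closure (insert x (insert (ι d.s) S0))) (BB_cen ?_) (BB_elem ?_ ?_) (by omega) hc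
    · rintro z (rfl | hz)
      exacts [h3, (a6 z hz).2.1]
    · rintro z (rfl | hz)
      exacts [h1, (a6 z hz).1]
    · rintro z (rfl | hz) z' (rfl | hz')
      exacts [rfl, h4 z' hz', (h4 z hz).symm, (a6 z hz).2.2 z' hz']
  have c2 : ∀ x' ∈ insert (ι d.s) S0, Commute (ι d.p * u * (ι d.p)⁻¹) x' := by
    have c : ∀ {x : G}, Commute u x → Commute (ι d.p * u * (ι d.p)⁻¹) (ι d.p * x * (ι d.p)⁻¹) := fun e =>
      e.map (MulAut.conj (ι d.p))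
    have c1 : Commute (ι d.p * u * (ι d.p)⁻¹) (ι d.s) := by
      simpa only [← map_inv, ← map_mul, h.hy.af.pa] using c (h.BB_uF 1 0)
    rintro _ (rfl | rfl | rfl | rfl | rfl)
    · exact c1
    · simpa only [← map_inv, ← map_mul, h.hy.af.pz] using c (h.BB_uF 0 1)
    · have h1 : Commute (ι d.p * u * (ι d.p)⁻¹) (ι (d.U 0 1 0 * d.s)) := by
        simpa only [← map_inv, ← map_mul, h.hy.af.ps] using c h.us
      simpa only [map_mul, mul_inv_cancel_right] using h1.mul_right c1.inv_right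
    · simpa only [h.bf.pb, mul_inv_cancel_right] using c (h.ub 1)
    · exact h.uu.symm
  have h3 := key _ w2 rfl fun x' hx' => (a6 x' hx').2.1.symm
  have h4 := key (ι d.p * u * (ι d.p)⁻¹) (by rw [conj_mul, h.u2, mul_one, mul_inv_cancel])
    (BB_cen (fun x hx => (c2 x hx).symm) _ h3).symm c2
  obtain ⟨f, k, e⟩ := BB_ind (P := fun x => ∃ f k, x * t * x⁻¹ = t * 𝐔[0, f, k]) ⟨0, 0, by simp [h.hy.BB_one]⟩ (by
    rintro x hx y ⟨f, k, e⟩
    rw [show x * y * t * (x * y)⁻¹ = x * (y * t * y⁻¹) * x⁻¹ by group, e, ← conj_mul]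
    rcases hx with rfl | hx
    · exact ⟨_, _, by rw [sU, ← h.hy.tc, mul_inv_cancel_right]⟩
    · rw [BB_comm h.sq_E7 (a1 x hx).1 (BB_F f k), mul_inv_cancel_right]
      obtain ⟨f', k', m, rfl | rfl⟩ := h.mem_E7.1 (a1 x hx).1
      · exact ⟨_, _, by rw [h.bf.BB_Nt h.hy, mul_assoc, h.hy.BB_F]⟩
      · exact ⟨_, _, by rw [h.BB_Nut, mul_assoc, h.hy.BB_F]⟩) h4
  have h5 : (ι d.p)⁻¹ * t * ι d.p = t := by rw [mul_assoc, h.hy.tc, inv_mul_cancel_left]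
  have h6 : ι d.p * u * (ι d.p)⁻¹ * t * (ι d.p * u * (ι d.p)⁻¹)⁻¹ = t * ι d.s :=
    calc _ = ι d.p * (u * ((ι d.p)⁻¹ * t * ι d.p) * u⁻¹) * (ι d.p)⁻¹ := by group
      _ = _ := by rw [h5, h.ut, ← h.hy.af.pa, map_mul, map_mul, map_inv, ← mul_assoc, ← h.hy.tc]; group
  rw [h6, mul_right_inj] at e
  exact h.hy.af.s_ne _ _ _ (h.hy.inj e).symm

/-- the case in which `t c` is not conjugate to `t` -/
theorem Wf.w8 (h : Wf d ι t O b u) (hc : ¬ IsConj t (t * ι (d.U 0 F4.v 0))) :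
    Ef d ι t O b u (E7 d ι b u) := by
  have := h.hy.finA
  obtain ⟨n1, n2, n3, n4, n5⟩ := h.n_E7
  refine ⟨h, h.sq_E7, le_rfl, n1, n2, n3, n4, h.r_E7, fun f k e => h.tr_E7 ?_ k, _, n5, fun y hy => ?_, h.gF 1 0⟩
  · have key : ∀ x y : A, IsConj (t * ι y) (t * ι (x * y * x⁻¹)) := fun x y => isConj_iff.2 ⟨ι x, by
      rw [← mul_assoc, ← h.hy.tc, map_mul, map_mul, map_inv]; group⟩
    by_contra hf
    obtain ⟨l, hl⟩ := (by decide : ∀ f k : F4, ¬ f * f = f → ∃ l, k + 0 * 0 + l * f = 0) f k hf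
    have h1 := e.trans (key (d.U l 0 0) _)
    rw [h.hy.af.U_conj, hl] at h1
    rcases (by decide : ∀ f : F4, ¬ f * f = f → f = F4.v ∨ f = F4.w) f hf with rfl | rfl
    · exact hc h1
    · have h2 := h1.trans (key d.s _)
      rw [h.hy.af.sU] at h2
      exact hc h2
  · obtain ⟨k, m, rfl⟩ := (h.bf.mem_B0 h.hy).1 hy
    exact Commute.mul_right (h.bf.g_E h.hy 0 k) (h.gb m)

end Cfsg.Agent.MS
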