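import Cfsg.Agent.MS.BaseA

/-! Helper lemmas for `MS/BaseG`. -/

set_option autoImplicit false

namespace Cfsg.Agent.MS

open Subgroup H29 H42

variable {A G : Type*} [Group A] [Group G] {d : AD A} {ι : A →* G} {t : G} {O E : Subgroup G}

namespace BG

variable {o y τ : G} {l m : A} {K : Subgroup A}

theorem tt (h : Hy d ι t O) (l m : A) : t * ι l * (t * ι m) = ι (l * m) := by
  rw [h.tc, mul_assoc, ← mul_assoc t, h.t2, one_mul, map_mul]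

theorem lt (h : Hy d ι t O) (l m : A) : ι l * (t * ι m) = t * ι (l * m) := by
  rw [← mul_assoc, ← h.tc, mul_assoc, map_mul]

theorem tinv (h : Hy d ι t O) (l : A) : (t * ι l)⁻¹ = t * ι l⁻¹ :=
  inv_eq_of_mul_eq_one_right (by rw [tt h, mul_inv_cancel, map_one])

/-- the group `⟨t⟩ × ι K` -/
def tk (h : Hy d ι t O) (K : Subgroup A) : Subgroup G where
  carrier := {y | ∃ l ∈ K, y = ι l ∨ y = t * ι l}
  one_mem' := ⟨1, one_mem _, .inl (map_one ι).symm⟩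
  mul_mem' := by
    rintro _ _ ⟨l, hl, rfl | rfl⟩ ⟨m, hm, rfl | rfl⟩
    exacts [⟨_, mul_mem hl hm, .inl (map_mul ι _ _).symm⟩, ⟨_, mul_mem hl hm, .inr (lt h _ _)⟩,
      ⟨_, mul_mem hl hm, .inr (by rw [map_mul, mul_assoc])⟩, ⟨_, mul_mem hl hm, .inl (tt h _ _)⟩]
  inv_mem' := by
    rintro _ ⟨l, hl, rfl | rfl⟩
    exacts [⟨_, inv_mem hl, .inl (map_inv ι _).symm⟩, ⟨_, inv_mem hl, .inr (tinv h l)⟩]

theorem card_tk (h : Hy d ι t O) (K : Subgroup A) : Nat.card (tk h K) = Nat.card K * 2 := by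
  have le : K.map ι ≤ tk h K := fun _ ⟨l, hl, e⟩ => ⟨l, hl, .inl e.symm⟩
  have n : ∀ l, t * ι l ∉ K.map ι := fun l ⟨m, _, e⟩ => h.tr (m * l⁻¹) (by rw [map_mul, e, map_inv, mul_inv_cancel_right])
  have ht : t ∈ tk h K := ⟨1, one_mem _, .inr (by rw [map_one, mul_one])⟩
  rw [← card_mul_relIndex le, card_map_of_injective h.inj, relIndex_eq_two_iff.2 ⟨t, ht, ?_⟩]
  rintro _ ⟨l, hl, rfl | rfl⟩
  · exact .inr ⟨mem_map_of_mem ι hl, h.tc l ▸ n l⟩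
  · exact .inl ⟨by rw [h.tc, mul_assoc, h.t2, mul_one]; exact mem_map_of_mem ι hl, n l⟩

theorem closure_eq (h : Hy d ι t O) (S : Set A) : closure (ι '' S ∪ {t}) = tk h (closure S) := by
  refine le_antisymm ((closure_le _).2 ?_) ?_
  · rintro _ (⟨l, hl, rfl⟩ | rfl)
    exacts [⟨l, subset_closure hl, .inl rfl⟩, ⟨1, one_mem _, .inr (by rw [map_one, mul_one])⟩]
  · have k : ∀ l ∈ closure S, ι l ∈ closure (ι '' S ∪ {t}) := fun l hl =>
      closure_mono Set.subset_union_left (ι.map_closure S ▸ mem_map_of_mem ι hl)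
    rintro _ ⟨l, hl, rfl | rfl⟩
    exacts [k l hl, mul_mem (subset_closure (.inr rfl)) (k l hl)]

/-- the elementary abelian subgroup of order 16 of `A` -/
def FA (d : AD A) : Subgroup A := closure {x | ∃ f k, x = d.U 0 f k}

theorem mem_FA [Finite A] (h : AF d) : l ∈ FA d ↔ ∃ f k, l = d.U 0 f k := by
  refine ⟨fun hl => ?_, fun hl => subset_closure hl⟩
  induction hl using closure_induction with
  | mem _ a => exact a
  | one => exact ⟨0, 0, h.U_one.symm⟩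
  | mul _ _ _ _ a b =>
    obtain ⟨_, _, rfl⟩ := a
    obtain ⟨_, _, rfl⟩ := b
    exact ⟨_, _, by rw [h.mul, add_zero]⟩
  | inv _ _ a =>
    obtain ⟨_, _, rfl⟩ := a
    exact ⟨_, _, h.U_inv _ _ _⟩

theorem card_FA [Finite A] (h : AF d) : Nat.card (FA d) = 16 := by
  rw [← Nat.card_eq_of_bijective (fun p : F4 × F4 => (⟨d.U 0 p.1 p.2, (mem_FA h).2 ⟨_, _, rfl⟩⟩ : FA d))
    ⟨fun p q e => Prod.ext (h.U_inj (congrArg Subtype.val e)).2.1 (h.U_inj (congrArg Subtype.val e)).2.2,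
      fun x => let ⟨f, k, e⟩ := (mem_FA h).1 x.2; ⟨(f, k), Subtype.ext e.symm⟩⟩,
    Nat.card_prod, Nat.card_eq_fintype_card, F4.card_eq]

theorem FF_eq : FF d ι = (FA d).map ι := by
  rw [FA, ι.map_closure, FF]
  exact congrArg _ (Set.ext fun _ => ⟨fun ⟨f, k, e⟩ => ⟨_, ⟨f, k, rfl⟩, e.symm⟩, fun ⟨_, ⟨f, k, e⟩, e'⟩ => ⟨f, k, e ▸ e'.symm⟩⟩)

theorem E5_eq (h : Hy d ι t O) : E5 d ι t = tk h (FA d) := by
  rw [FA, ← closure_eq, E5]
  exact congrArg (fun S => closure (S ∪ {t}))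
    (Set.ext fun _ => ⟨fun ⟨f, k, e⟩ => ⟨_, ⟨f, k, rfl⟩, e.symm⟩, fun ⟨_, ⟨f, k, e⟩, e'⟩ => ⟨f, k, e ▸ e'.symm⟩⟩)

theorem T0_eq (h : Hy d ι t O) : T0 d ι t = tk h (T1 d) := by
  rw [T1, ← closure_eq, T0, Set.image_union, Set.image_singleton, Set.union_assoc, Set.singleton_union]
  exact congrArg (fun S => closure (S ∪ {ι d.s, t})) (Set.ext fun _ =>
    ⟨fun ⟨l, f, k, e⟩ => ⟨_, ⟨l, f, k, rfl⟩, e.symm⟩, fun ⟨_, ⟨l, f, k, e⟩, e'⟩ => ⟨l, f, k, e ▸ e'.symm⟩⟩)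

theorem tk_le (h : Hy d ι t O) (K : Subgroup A) : tk h K ≤ centralizer {t} := by
  rintro _ ⟨l, -, rfl | rfl⟩ <;> rw [mem_centralizer_singleton_iff]
  exacts [(h.tc l).symm, by rw [mul_assoc, h.tc]]

theorem tk_On (h : Hy d ι t O) (hy : y ∈ tk h K) (ho : o ∈ O) : y * o * y⁻¹ ∈ O := by
  obtain ⟨l, -, rfl | rfl⟩ := hy
  · exact h.On l o ho
  · have := h.On l o ho
    rwa [mul_inv_rev, ← mul_assoc, mul_assoc t, mul_assoc t, ← h.Ot _ this, mul_inv_cancel_right]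

theorem cen (h : Hy d ι t O) (ht : y * t = t * y) :
    ∃ o ∈ O, ∃ τ l, (τ = 1 ∨ τ = t) ∧ y = o * (τ * ι l) := by
  obtain ⟨o, ho, l, e | e⟩ := h.cen y ht
  exacts [⟨o, ho, 1, l, .inl rfl, by rwa [one_mul]⟩, ⟨o, ho, t, l, .inr rfl, by rwa [← mul_assoc]⟩]

theorem conj (h : Hy d ι t O) (hτ : τ = 1 ∨ τ = t) (l m : A) :
    τ * ι l * ι m * (τ * ι l)⁻¹ = ι (l * m * l⁻¹) := by
  rcases hτ with rfl | rfl
  · rw [one_mul, map_mul, map_mul, map_inv]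
  · rw [tinv h, mul_assoc τ, ← map_mul, tt h]

theorem comm (h : Hy d ι t O) (ho : o ∈ O) (hτ : τ = 1 ∨ τ = t) (hm : m ∈ d.L)
    (e : o * (τ * ι l) * ι m = ι m * (o * (τ * ι l))) : l * m = m * l := by
  rw [← mul_assoc (ι m), ← h.OL o ho m hm, mul_assoc, mul_assoc o, mul_right_inj, ← mul_inv_eq_iff_eq_mul,
    conj h hτ] at e
  exact mul_inv_eq_iff_eq_mul.1 (h.inj e)

theorem isP (h2 : ∀ y ∈ E, y * y = 1) : IsPGroup 2 E := fun y => ⟨1, Subtype.ext (by simpa [pow_two] using h2 y y.2)⟩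

end BG

end Cfsg.Agent.MS
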