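import Cfsg.Agent.H42.SylIn
import Cfsg.Agent.MS.Defs
import Cfsg.Agent.S0111

/-! notes/MS.md, section GenA. -/

set_option autoImplicit false
set_option linter.unusedSectionVars false

namespace Cfsg.Agent.MS

open Subgroup H42

variable {G : Type*} [Group G] [Finite G]

namespace GenA

theorem comm {E : Subgroup G} (h2 : ∀ x ∈ E, x * x = 1) {x y : G} (hx : x ∈ E) (hy : y ∈ E) : x * y = y * x := by
  rw [← inv_eq_of_mul_eq_one_left (h2 _ (mul_mem hx hy)), mul_inv_rev, inv_eq_of_mul_eq_one_left (h2 x hx),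
    inv_eq_of_mul_eq_one_left (h2 y hy)]

theorem isP {x : G} {n : ℕ} (hx : x ^ 2 ^ n = 1) : IsPGroup 2 (zpowers x) := by
  rintro ⟨_, k, rfl⟩
  exact ⟨n, Subtype.ext (by
    show (x ^ k) ^ 2 ^ n = 1
    rw [← zpow_natCast, ← zpow_mul, mul_comm, zpow_mul, zpow_natCast, hx, one_zpow])⟩

theorem isP' {x : G} (hx : x * x = 1) : IsPGroup 2 (zpowers x) := isP (n := 1) (by rw [pow_one, pow_two, hx])

theorem exists_last {E : Subgroup G} {x : G} (hx : x ∉ E) {k : ℕ} (h : x ^ 2 ^ k ∈ E) :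
    ∃ j : ℕ, x ^ 2 ^ j ∉ E ∧ x ^ 2 ^ j * x ^ 2 ^ j ∈ E := by
  induction k with
  | zero => exact absurd (by simpa using h) hx
  | succ k ih =>
    by_cases e : x ^ 2 ^ k ∈ E
    exacts [ih e, ⟨k, e, by rwa [← pow_two, ← pow_mul, ← pow_succ]⟩]

theorem mul_iff {K M : Subgroup G} (h : K.relIndex M = 2) {a b : G} (ha : a ∈ M) (hb : b ∈ M) :
    a * b ∈ K ↔ (a ∈ K ↔ b ∈ K) :=
  mul_mem_iff_of_index_two (H := K.subgroupOf M) h (a := ⟨a, ha⟩) (b := ⟨b, hb⟩)

/-- Thompson's transfer lemma in a subgroup -/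
theorem thom {H S Q : Subgroup G} {t : G} (hS : SylIn 2 S H) (hQ : Q ≤ S) (hi : Q.relIndex S = 2) (tS : t ∈ S)
    (tQ : t ∉ Q) (t2 : t * t = 1) : Pt H t ∨ ∃ g ∈ H, g * t * g⁻¹ ∈ Q := by
  have o : orderOf (⟨t, hS.le tS⟩ : H) = 2 := orderOf_eq_prime (Subtype.ext (by simpa [pow_two] using t2))
    fun e => tQ (by rw [show t = 1 from congrArg Subtype.val e]; exact one_mem _)
  rcases S0111.result ((hS.isP.comap_subtype (K := H)).toSylow hS.ndvd) (Q.subgroupOf H) (fun x hx => hQ hx)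
    ((relIndex_subgroupOf hS.le).trans hi) ⟨t, hS.le tS⟩ o tS tQ with ⟨M, -, hM, tM⟩ | ⟨g, hg⟩
  · refine .inl ⟨M.map H.subtype, map_subtype_le _, ?_, fun e => tM ((mem_map_iff_mem (subtype_injective _)).1 e)⟩
    rwa [relIndex, subgroupOf, comap_map_eq_self_of_injective (subtype_injective _)]
  · exact .inr ⟨g, g.2, hg⟩

end GenA

open GenA

/-- an odd order element times a commuting 2-element is not a 2-element -/
theorem odd_two {o y : G} (ho : Odd (orderOf o)) (e : o * y = y * o) {i k : ℕ} (h1 : y ^ 2 ^ i = 1)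
    (h2 : (o * y) ^ 2 ^ k = 1) : o = 1 := by
  have h : (o * y) ^ 2 ^ (i + k) = 1 := by rw [pow_add, mul_comm (2 ^ i), pow_mul, h2, one_pow]
  rw [(show Commute o y from e).mul_pow, pow_add 2, pow_mul y, h1, one_pow, mul_one, ← pow_add] at h
  exact orderOf_eq_one_iff.1 (Nat.eq_one_of_dvd_coprimes ((Nat.coprime_two_right.2 ho).pow_right (i + k)) dvd_rfl
    (orderOf_dvd_of_pow_eq_one h))

/-- an involution acting on an elementary abelian group -/
theorem card_le_sq {E : Subgroup G} {t : G} (h2 : ∀ x ∈ E, x * x = 1) (t2 : t * t = 1)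
    (nt : t ∈ normalizer (E : Set G)) :
    Nat.card E ≤ Nat.card (E ⊓ centralizer {t} : Subgroup G) ^ 2 := by
  have hn : ∀ e ∈ E, t * e * t⁻¹ ∈ E := fun e he => conj_mem_of_mem_normalizer nt he
  let f : E →* G := MonoidHom.mk' (fun e => e * (t * e * t⁻¹)) fun a b => by
    rw [coe_mul]
    calc (a : G) * b * (t * (a * b) * t⁻¹) = a * (b * (t * a * t⁻¹)) * (t * b * t⁻¹) := by group
      _ = _ := by rw [comm h2 b.2 (hn a a.2)]; group
  have hr : f.range ≤ E ⊓ centralizer {t} := by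
    rintro _ ⟨e, rfl⟩
    refine ⟨E.mul_mem e.2 (hn e e.2), mem_centralizer_singleton_iff.2 (mul_inv_eq_iff_eq_mul.1 ?_).symm⟩
    show t * ((e : G) * (t * e * t⁻¹)) * t⁻¹ = e * (t * e * t⁻¹)
    calc _ = t * e * t⁻¹ * (t * t * e * (t * t)⁻¹) := by group
      _ = _ := by rw [t2, one_mul, inv_one, mul_one, comm h2 e.2 (hn e e.2)]
  have hk : f.ker.map E.subtype ≤ E ⊓ centralizer {t} := by
    rintro _ ⟨e, he, rfl⟩
    refine ⟨e.2, mem_centralizer_singleton_iff.2 (mul_inv_eq_iff_eq_mul.1 ?_).symm⟩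
    have h1 : (e : G) * (t * e * t⁻¹) = 1 := he
    exact (eq_inv_of_mul_eq_one_right h1).trans (inv_eq_of_mul_eq_one_left (h2 _ e.2))
  rw [← f.ker.card_mul_index, index_ker, pow_two]
  exact Nat.mul_le_mul (card_subtype E f.ker ▸ card_le_of_le hk) (card_le_of_le hr)

/-- an elementary abelian subgroup of `E ⟨t⟩` which is big lies in `E` -/
theorem le_of_big {E E' : Subgroup G} {t : G} (h2 : ∀ x ∈ E, x * x = 1) (h2' : ∀ x ∈ E', x * x = 1)
    (hle : ∀ x ∈ E', x ∈ E ∨ x * t ∈ E)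
    (hc : 2 * Nat.card (E ⊓ centralizer {t} : Subgroup G) < Nat.card E') : E' ≤ E := by
  intro x hx
  by_contra nx
  have hxt := (hle x hx).resolve_left nx
  have h1 : E ⊓ E' ≤ E ⊓ centralizer {t} := fun y hy => ⟨hy.1, mem_centralizer_singleton_iff.2 (by
    have a := comm h2 hy.1 hxt
    rwa [← mul_assoc, comm h2' hy.2 hx, mul_assoc, mul_assoc, mul_right_inj] at a)⟩
  have h3 : E.relIndex E' ∣ 2 := relIndex_dvd_two_iff.2 ⟨x⁻¹, inv_mem hx, fun b hb => ((hle b hb).imp_right fun e => by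
    simpa using mul_mem e (inv_mem hxt)).symm⟩
  have h4 := card_mul_relIndex (inf_le_right : E ⊓ E' ≤ E')
  rw [inf_relIndex_right] at h4
  have := Nat.mul_le_mul (card_le_of_le h1) (Nat.le_of_dvd two_pos h3)
  omega

theorem syl_of_inv {H E : Subgroup G} {t : G} (hle : E ≤ H) (hE : IsPGroup 2 E) (t2 : t * t = 1)
    (nH : t ∈ normalizer (H : Set G)) (nE : t ∈ normalizer (E : Set G))
    (h : ∀ n ∈ H, n ∈ normalizer (E : Set G) → (∃ k : ℕ, n ^ 2 ^ k = 1) →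
      n * t * n⁻¹ * t⁻¹ ∈ E → n ∈ E) : SylIn 2 E H := by
  obtain ⟨R, hR, le⟩ := exists_sylIn ((isP' t2).to_sup_of_normal_right' hE (zpowers_le.2 nE))
    (sup_le_sup_left hle _ : zpowers t ⊔ E ≤ zpowers t ⊔ H)
  have h0 := hR.inf_normal le_sup_right (sup_le (zpowers_le.2 nH) le_normalizer)
  have l0 : E ≤ R ⊓ H := le_inf (le_sup_right.trans le) hle
  rcases l0.eq_or_lt with e | e
  · exact e ▸ h0
  obtain ⟨n, hn, nn⟩ := SetLike.exists_of_lt (lt_inf_normalizer h0.isP e)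
  have tR : t ∈ R := le (mem_sup_left (mem_zpowers t))
  have p : ∀ {x}, x ∈ R ⊓ H → ∃ k : ℕ, x ^ 2 ^ k = 1 := fun hx =>
    (h0.isP ⟨_, hx⟩).imp fun _ hk => congrArg Subtype.val hk
  have nR : n ∈ R := hn.1.1
  have nH' : n ∈ H := hn.1.2
  have nN : n ∈ normalizer (E : Set G) := hn.2
  have c : n * t * n⁻¹ * t⁻¹ ∈ R ⊓ H ⊓ normalizer (E : Set G) :=
    mem_inf.2 ⟨mem_inf.2 ⟨mul_mem (mul_mem (mul_mem nR tR) (inv_mem nR)) (inv_mem tR), by
      simpa [mul_assoc] using mul_mem nH' (conj_mem_of_mem_normalizer nH (inv_mem nH'))⟩,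
      mul_mem (mul_mem (mul_mem nN nE) (inv_mem nN)) (inv_mem nE)⟩
  obtain ⟨k, hk⟩ := p c.1
  obtain ⟨j, h1, h2⟩ := exists_last (mt (h n hn.1.2 hn.2 (p hn.1)) nn) (hk ▸ one_mem E)
  have ti : t⁻¹ = t := inv_eq_of_mul_eq_one_left t2
  have iv : t * (n * t * n⁻¹ * t⁻¹)⁻¹ * t⁻¹ = n * t * n⁻¹ * t⁻¹ := by
    rw [show t * (n * t * n⁻¹ * t⁻¹)⁻¹ * t⁻¹ = t * t * (n * t⁻¹ * n⁻¹ * t⁻¹) by group, t2, one_mul, ti]
  generalize n * t * n⁻¹ * t⁻¹ = c' at c h1 h2 iv
  have m := pow_mem c (2 ^ j)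
  refine absurd (h _ m.1.2 m.2 (p m.1) ?_) h1
  rwa [mul_assoc, mul_assoc, ← mul_assoc t, ← inv_pow, ← conj_pow, iv]

/-- `E` Sylow in `K`, `s` an involution normalising both: an involution of `K s` is conjugate into `E s` -/
theorem conj_coset {K E : Subgroup G} {s y : G} (hE : SylIn 2 E K) (s2 : s * s = 1) (sK : s ∉ K)
    (nK : s ∈ normalizer (K : Set G)) (nE : s ∈ normalizer (E : Set G)) (y2 : y * y = 1)
    (hy : y * s⁻¹ ∈ K) : ∃ k ∈ K, k * y * k⁻¹ * s⁻¹ ∈ E := by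
  obtain ⟨R, hR, le⟩ := exists_sylIn ((isP' s2).to_sup_of_normal_right' hE.isP (zpowers_le.2 nE))
    (sup_le_sup_left hE.le _ : zpowers s ⊔ E ≤ zpowers s ⊔ K)
  have e : R ⊓ K = E := hE.eq_of_le hR.isP.to_inf_left inf_le_right (le_inf (le_sup_right.trans le) hE.le)
  obtain ⟨g, hg, k⟩ := hR.exists_conj (isP' y2) (zpowers_le.2 (by
    simpa using mul_mem (mem_sup_right hy) (mem_sup_left (mem_zpowers s) : s ∈ zpowers s ⊔ K)))
  obtain ⟨a, ha, b, hb, rfl⟩ := exists_mul_of_mem_sup (zpowers_le.2 nK) hg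
  have aR : a ∈ R := le (mem_sup_left ha)
  refine ⟨b, hb, e ▸ mem_inf.2 ⟨mul_mem ?_ (inv_mem (le (mem_sup_left (mem_zpowers s)))), ?_⟩⟩
  · simpa [mul_assoc] using mul_mem (mul_mem (inv_mem aR) (k y (mem_zpowers y))) aR
  · simpa [mul_assoc] using mul_mem (mul_mem hb hy) (conj_mem_of_mem_normalizer nK (inv_mem hb))

/-- an odd order element centralising `t` and `C_E(t)` centralises `E` -/
theorem cen_of_odd {E : Subgroup G} {t o : G} (h2 : ∀ x ∈ E, x * x = 1) (t2 : t * t = 1)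
    (nt : t ∈ normalizer (E : Set G)) (no : o ∈ normalizer (E : Set G)) (ho : Odd (orderOf o))
    (ot : o * t = t * o) (hc : ∀ x ∈ E, x * t = t * x → o * x = x * o) :
    ∀ x ∈ E, o * x = x * o := by
  intro x hx
  have tx := conj_mem_of_mem_normalizer nt hx
  have ox := conj_mem_of_mem_normalizer no hx
  have ti : t⁻¹ = t := inv_eq_of_mul_eq_one_left t2
  have tt : ∀ y : G, t * (t * y * t⁻¹) * t⁻¹ = y := fun y => by
    rw [show t * (t * y * t⁻¹) * t⁻¹ = t * t * y * (t * t)⁻¹ by group, t2]; simp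
  have a := hc _ (mul_mem hx tx) (mul_inv_eq_iff_eq_mul.1 (by rw [← conj_mul, tt, comm h2 hx tx])).symm
  have a' : o * x * o⁻¹ * (t * (o * x * o⁻¹) * t⁻¹) = x * (t * x * t⁻¹) := by
    rw [show t * (o * x * o⁻¹) * t⁻¹ = t * o * x * (t * o)⁻¹ by group, ← ot,
      show o * x * o⁻¹ * (o * t * x * (o * t)⁻¹) = o * (x * (t * x * t⁻¹)) * o⁻¹ by group, a, mul_inv_cancel_right]
  have b := hc _ (mul_mem hx ox) (mul_inv_eq_iff_eq_mul.1 (by
    have tox := conj_mem_of_mem_normalizer nt ox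
    rw [← conj_mul, eq_inv_mul_iff_mul_eq.2 a', inv_eq_of_mul_eq_one_left (h2 _ ox), comm h2 tx (mul_mem ox (mul_mem hx tx)),
      mul_assoc, mul_assoc x, h2 _ tx, mul_one, comm h2 hx ox])).symm
  have c : Commute (o ^ 2 ^ 1) x := by
    have := mul_inv_eq_iff_eq_mul.2 b
    rw [← conj_mul, comm h2 hx ox, mul_right_inj] at this
    rw [pow_one, pow_two]
    exact mul_inv_eq_iff_eq_mul.1 ((by group : o * o * x * (o * o)⁻¹ = o * (o * x * o⁻¹) * o⁻¹).trans this)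
  obtain ⟨k, hk⟩ := mem_zpowers_pow_iff.2 ((Nat.coprime_two_left.2 ho).pow_left 1)
  rw [← hk]
  exact c.zpow_left k

theorem ctrl {H M : Subgroup G} {t : G} (hM : M ≤ H) (tM : t ∈ M) (t2 : t * t = 1)
    (fus : ∀ g ∈ H, g * t * g⁻¹ ∈ M → ∃ m ∈ M, g * t * g⁻¹ = m * t * m⁻¹)
    (syl : ¬ 2 ∣ M.relIndex (H ⊓ centralizer {t})) (h : Pt M t) : Pt H t := by
  have odd : ¬ 2 ∣ M.relIndex H := fun ev => syl (by
    let t' : H := ⟨t, hM tM⟩
    have h1 := (isP' (x := t') (Subtype.ext t2)).card_modEq_card_fixedPoints (H ⧸ M.subgroupOf H)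
    let C : Subgroup H := (H ⊓ centralizer {t}).subgroupOf H
    have h2 : MulAction.fixedPoints (zpowers t') (H ⧸ M.subgroupOf H) =
        MulAction.orbit C ((1 : H) : H ⧸ M.subgroupOf H) := by
      ext q
      obtain ⟨g, rfl⟩ := QuotientGroup.mk_surjective q
      refine ⟨fun hq => ?_, ?_⟩
      · have e := QuotientGroup.eq.1 (hq ⟨t', mem_zpowers _⟩).symm
        have e' : (g⁻¹ : H) * t * (g⁻¹ : H)⁻¹ ∈ M := by simpa [mul_assoc, mem_subgroupOf] using e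
        obtain ⟨m, hm, k⟩ := fus _ (g⁻¹).2 e'
        refine ⟨⟨g * ⟨m, hM hm⟩, mem_inf.2 ⟨mul_mem g.2 (hM hm), mem_centralizer_singleton_iff.2 ?_⟩⟩,
          QuotientGroup.eq.2 (by simpa [mem_subgroupOf] using hm)⟩
        show (g : G) * m * t = t * (g * m)
        rw [show (g : G) * m * t = g * (m * t * m⁻¹) * m by group, ← k]; simp [mul_assoc]
      · rintro ⟨c, hc⟩ ⟨x, hx⟩
        rw [← hc]
        refine (zpowers_le (H := MulAction.stabilizer H (c • ((1 : H) : H ⧸ M.subgroupOf H)))).2 ?_ hx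
        refine QuotientGroup.eq.2 ?_
        have : ((c : H) : G) * t = t * (c : H) := mem_centralizer_singleton_iff.1 c.2.2
        show (t * ((c : H) * 1))⁻¹ * ((c : H) * 1) ∈ M
        rw [mul_one, ← this]; simpa using tM
    have h3 := MulAction.index_stabilizer C ((1 : H) : H ⧸ M.subgroupOf H)
    have h4 : MulAction.stabilizer C ((1 : H) : H ⧸ M.subgroupOf H) = (M.subgroupOf H).subgroupOf C := 
      Subgroup.ext fun x => SetLike.ext_iff.1 (MulAction.stabilizer_quotient (M.subgroupOf H)) (x : H)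
    rw [h2, Nat.card_coe_set_eq, ← h3, h4] at h1
    rw [← relIndex_subgroupOf (inf_le_left : H ⊓ centralizer {t} ≤ H)]
    exact (h1.dvd_iff dvd_rfl).1 ev)
  obtain ⟨K, hK, hi, tK⟩ := h
  obtain ⟨S, hS, le⟩ := exists_sylIn (isP' t2) (zpowers_le.2 tM)
  have tS := le (mem_zpowers t)
  have hS' : SylIn 2 S H := ⟨hS.le.trans hM, hS.isP, by
    rw [← relIndex_mul_relIndex S M H hS.le hM]
    exact fun e => (Nat.prime_two.dvd_mul.1 e).elim hS.ndvd odd⟩
  refine (thom hS' (inf_le_left : S ⊓ K ≤ S) (relIndex_eq_two_iff.2 ⟨t, tS, fun b hb => ?_⟩) tS (fun e => tK e.2)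
    t2).resolve_right ?_
  · rw [mem_inf, mem_inf, and_iff_right hb, and_iff_right (mul_mem hb tS), mul_iff hi (hS.le hb) tM]
    by_cases e : b ∈ K <;> simp [e, tK]
  · rintro ⟨g, hg, e⟩
    obtain ⟨m, hm, k⟩ := fus g hg (hK e.2)
    have := (mem_inf.1 e).2
    rw [k, mul_iff hi (mul_mem hm tM) (inv_mem hm), mul_iff hi hm tM, inv_mem_iff] at this
    by_cases e : m ∈ K <;> simp [e, tK] at this

theorem Pt.false (hG : ∀ H : Subgroup G, H.index ≠ 2) {t : G} (h : Pt ⊤ t) : False := by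
  obtain ⟨K, -, hi, -⟩ := h
  exact hG K (relIndex_top_right (H := K) ▸ hi)

end Cfsg.Agent.MS
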