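import Cfsg.Agent.MS.BaseA
import Cfsg.Agent.MS.GenA
import Cfsg.Agent.MS.BaseG0
import Cfsg.Agent.H8.OddCore

/-! notes/MS.md, section BaseG. -/

set_option autoImplicit false

namespace Cfsg.Agent.MS

open Subgroup H29 H42

variable {A G : Type*} [Group A] [Group G] [Finite G] {d : AD A} {ι : A →* G} {t u x : G}
  {O E Q : Subgroup G} {b : F4 → G} {η ν : F4}

theorem Hy.finA (h : Hy d ι t O) : Finite A := .of_injective ι h.inj

theorem Hy.oddO (h : Hy d ι t O) {o : G} (ho : o ∈ O) : Odd (orderOf o) :=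
  h.odd.of_dvd_nat (Subgroup.orderOf_dvd_natCard O ho)

theorem Hy.uniq (h : Hy d ι t O) {o : G} (ho : o ∈ O) {l : A} (e : o * ι l = 1) : o = 1 ∧ l = 1 := by
  have := h.finA
  obtain rfl : l = 1 := h.af.cL fun m hm => h.inj (by
    rw [map_mul, map_mul, eq_inv_of_mul_eq_one_right e, h.OL _ (inv_mem ho) m hm])
  exact ⟨by simpa using e, rfl⟩

theorem Hy.uniq' (h : Hy d ι t O) {o : G} (ho : o ∈ O) (l : A) : o * ι l ≠ t := fun e => by
  have := h.finA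
  obtain rfl : l = 1 := h.af.cL fun m hm => h.inj (by
    rw [map_mul, map_mul, eq_inv_mul_of_mul_eq e, mul_assoc, h.tc, ← mul_assoc, h.OL _ (inv_mem ho) m hm, mul_assoc])
  rw [map_one, mul_one] at e
  exact h.tr 1 ((map_one ι).trans (H8.eq_one_of_sq_of_odd (e ▸ h.oddO ho) h.t2).symm)

open BG

theorem Hy.mem_VV (h : Hy d ι t O) {y : G} : y ∈ VV d ι ↔ ∃ k, y = ι (d.U 0 0 k) := by
  have := h.finA
  refine ⟨fun hl => ?_, fun hl => subset_closure hl⟩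
  induction hl using closure_induction with
  | mem _ a => exact a
  | one => exact ⟨0, by rw [h.af.U_one, map_one]⟩
  | mul _ _ _ _ a b =>
    obtain ⟨_, rfl⟩ := a
    obtain ⟨_, rfl⟩ := b
    exact ⟨_, by rw [← map_mul, h.af.mul, add_zero]⟩
  | inv _ _ a =>
    obtain ⟨_, rfl⟩ := a
    exact ⟨_, by rw [← map_inv, h.af.U_inv]⟩

theorem Hy.mem_FF (h : Hy d ι t O) {y : G} : y ∈ FF d ι ↔ ∃ f k, y = ι (d.U 0 f k) := by
  have := h.finA
  refine ⟨fun hl => ?_, fun hl => subset_closure hl⟩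
  rw [FF_eq] at hl
  obtain ⟨l, hl, rfl⟩ := hl
  obtain ⟨f, k, rfl⟩ := (mem_FA h.af).1 hl
  exact ⟨f, k, rfl⟩

theorem Hy.card_FF (h : Hy d ι t O) : Nat.card (FF d ι) = 16 := by
  have := h.finA
  rw [FF_eq, card_map_of_injective h.inj, card_FA h.af]

theorem Hy.mem_E5 (h : Hy d ι t O) {y : G} :
    y ∈ E5 d ι t ↔ ∃ f k, y = ι (d.U 0 f k) ∨ y = t * ι (d.U 0 f k) := by
  have := h.finA
  rw [E5_eq h]
  refine ⟨fun ⟨l, hl, e⟩ => ?_, fun ⟨f, k, e⟩ => ⟨_, (mem_FA h.af).2 ⟨f, k, rfl⟩, e⟩⟩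
  obtain ⟨f, k, rfl⟩ := (mem_FA h.af).1 hl
  exact ⟨f, k, e⟩

theorem Hy.card_E5 (h : Hy d ι t O) : Nat.card (E5 d ι t) = 32 := by
  have := h.finA
  rw [E5_eq h, card_tk, card_FA h.af]

theorem Hy.mem_T0 (h : Hy d ι t O) {y : G} :
    y ∈ T0 d ι t ↔ ∃ l ∈ T1 d, y = ι l ∨ y = t * ι l := by
  rw [T0_eq h]; rfl

theorem Hy.card_T0 (h : Hy d ι t O) : Nat.card (T0 d ι t) = 256 := by
  have := h.finA
  rw [T0_eq h, card_tk, h.af.card_T1]

theorem Hy.syl_T0 (h : Hy d ι t O) : SylIn 2 (T0 d ι t) (centralizer {t}) := by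
  have := h.finA
  have le : T0 d ι t ≤ centralizer {t} := T0_eq h ▸ tk_le h _
  refine ⟨le, IsPGroup.of_card (n := 8) h.card_T0, fun hd => ?_⟩
  have k : Nat.card (O × tk h ⊤) = Nat.card (centralizer ({t} : Set G)) := Nat.card_eq_of_bijective
    (fun p => ⟨p.1 * p.2, mul_mem (mem_centralizer_singleton_iff.2 (h.Ot _ p.1.2)) (tk_le h _ p.2.2)⟩)
    ⟨fun p q e => by
      have e : (p.1 : G) * p.2 = q.1 * q.2 := congrArg Subtype.val e
      have e1 : ((q.1 : G)⁻¹ * p.1) * (p.2 * (q.2 : G)⁻¹) = 1 := by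
        rw [mul_assoc, ← mul_assoc (p.1 : G), e]; group
      have ho := mul_mem (inv_mem q.1.2) p.1.2
      have e2 : (q.1 : G)⁻¹ * p.1 = 1 := by
        obtain ⟨l, -, hl | hl⟩ := mul_mem p.2.2 (inv_mem q.2.2) <;> rw [hl] at e1
        · exact (h.uniq ho e1).1
        · rw [h.tc, ← mul_assoc, mul_eq_one_iff_eq_inv, inv_eq_of_mul_eq_one_right h.t2] at e1
          exact absurd e1 (h.uniq' ho l)
      rw [e2, one_mul] at e1
      exact Prod.ext (Subtype.ext (inv_mul_eq_one.1 e2).symm) (Subtype.ext (mul_inv_eq_one.1 e1)),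
    fun y => by
      obtain ⟨o, ho, l, e | e⟩ := h.cen y (mem_centralizer_singleton_iff.1 y.2)
      exacts [⟨(⟨o, ho⟩, ⟨_, l, mem_top l, .inl rfl⟩), Subtype.ext e.symm⟩,
        ⟨(⟨o, ho⟩, ⟨_, l, mem_top l, .inr rfl⟩), Subtype.ext ((mul_assoc _ _ _).symm.trans e.symm)⟩]⟩
  rw [← card_mul_relIndex le, h.card_T0, Nat.card_prod, card_tk, card_top, ← (T1 d).card_mul_index, h.af.card_T1] at k
  rw [show (T0 d ι t).relIndex (centralizer {t}) = Nat.card O * (T1 d).index by linarith, Nat.prime_two.dvd_mul] at hd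
  exact hd.elim h.odd.not_two_dvd_nat h.af.syl_T1

theorem Hy.uniq32 (h : Hy d ι t O) (hE : E ≤ T0 d ι t) (h2 : ∀ y ∈ E, y * y = 1)
    (hc : 32 ≤ Nat.card E) : E = E5 d ι t := by
  have := h.finA
  let K : Subgroup A :=
    { carrier := {l | ι l ∈ E ∨ t * ι l ∈ E}
      one_mem' := .inl (by rw [map_one]; exact one_mem _)
      mul_mem' := by
        rintro l m (a | a) (b | b)
        exacts [.inl (map_mul ι l m ▸ mul_mem a b), .inr (lt h l m ▸ mul_mem a b),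
          .inr (by rw [map_mul, ← mul_assoc]; exact mul_mem a b), .inl (tt h l m ▸ mul_mem a b)]
      inv_mem' := by
        rintro l (a | a)
        exacts [.inl (map_inv ι l ▸ inv_mem a), .inr (tinv h l ▸ inv_mem a)] }
  have le : E ≤ tk h K := fun y hy => by
    obtain ⟨l, -, rfl | rfl⟩ := h.mem_T0.1 (hE hy)
    exacts [⟨l, .inl hy, .inl rfl⟩, ⟨l, .inr hy, .inr rfl⟩]
  have n : ∀ l m, ι l ≠ t * ι m := fun l m e => h.tr (l * m⁻¹) (by rw [map_mul, e, map_inv, mul_inv_cancel_right])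
  have k : K = FA d := Subgroup.ext fun x => (h.af.e16 (E := K) (by
    rintro l (a | a) <;> obtain ⟨m, hm, e | e⟩ := h.mem_T0.1 (hE a)
    exacts [h.inj e ▸ hm, absurd e (n _ _), absurd e.symm (n _ _), h.inj (mul_left_cancel e) ▸ hm]) (by
    rintro l (a | a) <;> refine h.inj ?_
    exacts [by rw [map_mul, h2 _ a, map_one], by rw [← tt h, h2 _ a, map_one]]) (by
    have := hc.trans (card_le_of_le le)
    rw [card_tk] at this
    omega) x).trans (mem_FA h.af).symm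
  rw [k, ← E5_eq h] at le
  exact eq_of_le_of_card_ge le (h.card_E5 ▸ hc)

theorem Hy.rank' (h : Hy d ι t O) (hE : ∀ y ∈ E, y * t = t * y) (h2 : ∀ y ∈ E, y * y = 1)
    (hc : 32 ≤ Nat.card E) : ∃ n, n * t = t * n ∧ cj n E = E5 d ι t := by
  obtain ⟨n, hn, k⟩ := h.syl_T0.exists_conj (isP h2) fun y hy => mem_centralizer_singleton_iff.2 (hE y hy)
  refine ⟨n, mem_centralizer_singleton_iff.1 hn, h.uniq32 (cj_le_iff.2 k) ?_ (by rwa [card_cj])⟩
  rintro _ ⟨y, hy, rfl⟩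
  show n * y * n⁻¹ * (n * y * n⁻¹) = 1
  rw [conj_mul, h2 y hy, mul_one, mul_inv_cancel]

theorem Hy.rank (h : Hy d ι t O) (hE : ∀ y ∈ E, y * t = t * y) (h2 : ∀ y ∈ E, y * y = 1) :
    Nat.card E ≤ 32 := by
  by_contra hc
  obtain ⟨n, -, k⟩ := h.rank' hE h2 (by omega)
  exact hc (by rw [← card_cj n, k, h.card_E5])

/-- a conjugate of `t` does not centralise an elementary abelian group of order 64 -/
theorem Hy.not_conj (h : Hy d ι t O) {y : G} (hE : ∀ e ∈ E, e * y = y * e) (h2 : ∀ e ∈ E, e * e = 1)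
    (hc : 32 < Nat.card E) : ¬ IsConj t y := fun c => by
  obtain ⟨g, rfl⟩ := isConj_iff.1 c.symm
  refine hc.not_ge (card_cj g E ▸ h.rank ?_ ?_) <;> rintro _ ⟨e, he, rfl⟩
  · show g * e * g⁻¹ * _ = _ * (g * e * g⁻¹)
    rw [conj_mul, conj_mul, hE e he]
  · show g * e * g⁻¹ * (g * e * g⁻¹) = 1
    rw [conj_mul, h2 e he, mul_one, mul_inv_cancel]

/-- a 2-group centralising a conjugate of `t` has at most one elementary subgroup of order 32 -/
theorem Hy.two32 (h : Hy d ι t O) {y : G} (hy : IsConj t y) {P E' : Subgroup G} (hP : IsPGroup 2 P)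
    (hc : ∀ e ∈ P, e * y = y * e) (hE : E ≤ P) (hE' : E' ≤ P) (h2 : ∀ e ∈ E, e * e = 1)
    (h2' : ∀ e ∈ E', e * e = 1) (c : 32 ≤ Nat.card E) (c' : 32 ≤ Nat.card E') : E = E' := by
  obtain ⟨g, hg⟩ := isConj_iff.1 hy.symm
  obtain ⟨n, -, k⟩ := h.syl_T0.exists_conj (isPGroup_cj g hP) (cj_le_iff.2 fun e he =>
    mem_centralizer_singleton_iff.2 (by rw [← hg, conj_mul, conj_mul, hc e he]))
  have key : ∀ {D : Subgroup G}, D ≤ P → (∀ e ∈ D, e * e = 1) → 32 ≤ Nat.card D → cj n (cj g D) = E5 d ι t :=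
    fun hD a b => h.uniq32 ((cj_mono n (cj_mono g hD)).trans (cj_le_iff.2 k)) (by
      rintro _ ⟨_, ⟨e, he, rfl⟩, rfl⟩
      show n * (g * e * g⁻¹) * n⁻¹ * (n * (g * e * g⁻¹) * n⁻¹) = 1
      rw [conj_mul, conj_mul, a e he]; group) (by rwa [card_cj, card_cj])
  exact cj_inj.1 (cj_inj.1 ((key hE h2 c).trans (key hE' h2' c').symm))

theorem Hy.nsq (h : Hy d ι t O) (y : G) : ¬ IsConj t (y * y) := fun c => by
  obtain ⟨g, hg⟩ := isConj_iff.1 c.symm
  rw [← conj_mul] at hg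
  generalize g * y * g⁻¹ = w at hg
  obtain ⟨o, ho, τ, l, hτ, rfl⟩ := BG.cen h (y := w) (by rw [← hg, mul_assoc])
  have m : τ * ι l ∈ tk h ⊤ := by
    rcases hτ with rfl | rfl
    exacts [⟨l, mem_top l, .inl (one_mul _)⟩, ⟨l, mem_top l, .inr rfl⟩]
  have sq : τ * ι l * (τ * ι l) = ι (l * l) := by
    rcases hτ with rfl | rfl
    exacts [by rw [one_mul, map_mul], tt h l l]
  exact h.uniq' (mul_mem ho (tk_On h m ho)) (l * l) (by rw [← hg, ← sq]; group)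

theorem Hy.cVt (h : Hy d ι t O) {y : G} (ht : y * t = t * y)
    (hV : ∀ k, y * ι (d.U 0 0 k) = ι (d.U 0 0 k) * y) :
    ∃ o ∈ O, ∃ l f k, y = o * ι (d.U l f k) ∨ y = o * (t * ι (d.U l f k)) := by
  have := h.finA
  obtain ⟨o, ho, τ, m, hτ, rfl⟩ := BG.cen h ht
  have c := fun k => comm h ho hτ ((h.af.memL 0 0 k).2 (mul_zero 0)) (hV k)
  obtain ⟨l, f, k, rfl⟩ := h.af.cV (c _) (c _)
  exact ⟨o, ho, l, f, k, hτ.imp (fun e => by rw [e, one_mul]) fun e => by rw [e]⟩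

theorem BG.sq (h : Hy d ι t O) {e : G} (he : e ∈ E5 d ι t) : e * e = 1 := by
  have := h.finA
  have k : ∀ f k, d.U 0 f k * d.U 0 f k = 1 := fun f k => by
    rw [h.af.mul, ← h.af.U_one]
    congr 1 <;> revert f k <;> decide
  obtain ⟨f, k', rfl | rfl⟩ := h.mem_E5.1 he
  exacts [by rw [← map_mul, k, map_one], by rw [tt h, k, map_one]]

theorem BG.cenO (h : Hy d ι t O) {o : G} (ho : o ∈ O) (hn : o ∈ normalizer (E5 d ι t : Set G)) :
    ∀ e ∈ E5 d ι t, o * e = e * o := fun e he => by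
  have h1 : o * (e * o⁻¹ * e⁻¹) ∈ O := mul_mem ho (tk_On h (E5_eq h ▸ he) (inv_mem ho))
  have h2 : o * (e * o⁻¹ * e⁻¹) ∈ E5 d ι t := by
    rw [← mul_assoc, ← mul_assoc]
    exact mul_mem (conj_mem_of_mem_normalizer hn he) (inv_mem he)
  have := H8.eq_one_of_sq_of_odd (h.oddO h1) (BG.sq h h2)
  rwa [← mul_assoc, ← mul_assoc, mul_inv_eq_one, mul_inv_eq_iff_eq_mul] at this

theorem Hy.cE5 (h : Hy d ι t O) {y : G} (ht : y * t = t * y)
    (hV : ∀ k, y * ι (d.U 0 0 k) = ι (d.U 0 0 k) * y) (ha : y * ι (d.U 0 1 0) = ι (d.U 0 1 0) * y)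
    (hn : y ∈ normalizer (E5 d ι t : Set G)) :
    ∃ o ∈ O, (∀ e ∈ E5 d ι t, o * e = e * o) ∧ ∃ e ∈ E5 d ι t, y = o * e := by
  have := h.finA
  obtain ⟨o, ho, l, f, k, e⟩ := h.cVt ht hV
  obtain ⟨τ, hτ, rfl⟩ : ∃ τ, (τ = 1 ∨ τ = t) ∧ y = o * (τ * ι (d.U l f k)) :=
    e.elim (fun e => ⟨1, .inl rfl, by rwa [one_mul]⟩) fun e => ⟨t, .inr rfl, e⟩
  have c := comm h ho hτ ((h.af.memL 0 1 0).2 (mul_one 1)) ha
  rw [h.af.mul, h.af.mul] at c
  obtain rfl : l = 0 := by simpa using (h.af.U_inj c).2.2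
  have he : τ * ι (d.U 0 f k) ∈ E5 d ι t := h.mem_E5.2 ⟨f, k, hτ.imp (fun e => by rw [e, one_mul]) fun e => by rw [e]⟩
  exact ⟨o, ho, cenO h ho (mul_inv_cancel_right o _ ▸ mul_mem hn (inv_mem (le_normalizer he))), _, he, rfl⟩

theorem Hy.nFt (h : Hy d ι t O) {y : G} (ht : y * t = t * y) (hn : y ∈ normalizer (E5 d ι t : Set G)) :
    ∃ o ∈ O, (∀ e ∈ E5 d ι t, o * e = e * o) ∧ ∃ n : ℕ, ∃ l ∈ T1 d,
      y = o * ι (d.r ^ n * l) ∨ y = o * (t * ι (d.r ^ n * l)) := by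
  have := h.finA
  obtain ⟨o, ho, τ, m, hτ, rfl⟩ := BG.cen h ht
  have c : ∀ f k, ∃ f' k', m * d.U 0 f k * m⁻¹ = d.U 0 f' k' := fun f k => by
    have k1 := conj_mem_of_mem_normalizer hn (h.mem_E5.2 ⟨f, k, .inl rfl⟩)
    have k2 : o * (τ * ι m) * ι (d.U 0 f k) * (o * (τ * ι m))⁻¹ =
        o * (ι (m * d.U 0 f k * m⁻¹) * o⁻¹ * (ι (m * d.U 0 f k * m⁻¹))⁻¹) * ι (m * d.U 0 f k * m⁻¹) := by
      rw [← conj h hτ]; group
    have k3 := mul_mem ho (h.On (m * d.U 0 f k * m⁻¹) _ (inv_mem ho))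
    rw [k2] at k1
    generalize m * d.U 0 f k * m⁻¹ = m' at k1 k3
    generalize o * (ι m' * o⁻¹ * (ι m')⁻¹) = o' at k1 k3
    obtain ⟨f', k', e | e⟩ := h.mem_E5.1 k1
    · exact ⟨f', k', mul_inv_eq_one.1 (h.uniq k3 (by rw [map_mul, ← mul_assoc, e, map_inv, mul_inv_cancel])).2⟩
    · exact absurd (by rw [map_mul, ← mul_assoc, e, map_inv, mul_inv_cancel_right])
        (h.uniq' k3 (m' * (d.U 0 f' k')⁻¹))
  have hm : τ * ι m ∈ normalizer (E5 d ι t : Set G) := mem_normalizer_of_conj_mem fun e he => by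
    obtain ⟨f, k, rfl | rfl⟩ := h.mem_E5.1 he <;> obtain ⟨f', k', e⟩ := c f k
    · exact h.mem_E5.2 ⟨f', k', .inl (by rw [conj h hτ, e])⟩
    · have : τ * ι m * t = t * (τ * ι m) := by
        rcases hτ with rfl | rfl
        exacts [by rw [one_mul, h.tc], by rw [mul_assoc, h.tc]]
      exact h.mem_E5.2 ⟨f', k', .inr (by rw [← mul_assoc, this, mul_assoc t, mul_assoc t, conj h hτ, e])⟩
  obtain ⟨n, l, hl, rfl⟩ := h.af.nF c
  exact ⟨o, ho, cenO h ho (mul_inv_cancel_right o _ ▸ mul_mem hn (inv_mem hm)), n, l, hl,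
    hτ.imp (fun e => by rw [e, one_mul]) fun e => by rw [e]⟩

/-- an odd order element centralising `E5` lies in `O` -/
theorem Hy.odd_mem (h : Hy d ι t O) {y : G} (hy : ∀ e ∈ E5 d ι t, y * e = e * y)
    (ho : Odd (orderOf y)) : y ∈ O := by
  obtain ⟨o, hO, c, e, he, rfl⟩ := h.cE5 (hy t (subset_closure (.inr rfl))) (fun k => hy _ (h.mem_E5.2 ⟨0, k, .inl rfl⟩))
    (hy _ (h.mem_E5.2 ⟨1, 0, .inl rfl⟩)) (mem_normalizer_of_conj_mem fun e he => by rwa [hy e he, mul_inv_cancel_right])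
  refine H8.mem_of_sq_mem_of_odd ho ?_
  rw [pow_two, mul_assoc, ← mul_assoc e, ← c e he, mul_assoc, BG.sq h he, mul_one]
  exact mul_mem hO hO

theorem Hy.twist (h : Hy d ι t O) : ∃ ι' : A →* G, Hy d ι' t O ∧ (∀ l ∈ d.L, ι' l = ι l) ∧
    ∀ l, l ∉ d.L → ι' l = ι l * t := by
  classical
  let κ : A →* G := MonoidHom.mk' (fun l => if l ∈ d.L then ι l else t * ι l) fun l m => by
    have k := mul_mem_iff_of_index_two h.af.idx (a := l) (b := m)
    by_cases hl : l ∈ d.L <;> by_cases hm : m ∈ d.L <;> simp only [hl, hm, iff_true, iff_false, not_true, iff_self] at k <;>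
      simp only [hl, hm, k, if_true, if_false]
    exacts [map_mul ι l m, (lt h l m).symm, by rw [map_mul, mul_assoc], (tt h l m).symm]
  have k1 : ∀ l ∈ d.L, κ l = ι l := fun l hl => if_pos hl
  have k2 : ∀ l, l ∉ d.L → κ l = t * ι l := fun l hl => if_neg hl
  have m : ∀ l, κ l ∈ tk h ⊤ := fun l => ⟨l, mem_top l, (em (l ∈ d.L)).imp (k1 l) (k2 l)⟩
  refine ⟨κ, ⟨h.af, (injective_iff_map_eq_one κ).2 fun l e => ?_, h.t2, fun l e => ?_,
    fun l => (mem_centralizer_singleton_iff.1 (tk_le h _ (m l))).symm, h.odd, h.Ot,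
    fun o ho l hl => k1 l hl ▸ h.OL o ho l hl, fun l o ho => tk_On h (m l) ho, fun g hg => ?_⟩, k1,
    fun l hl => (k2 l hl).trans (h.tc l)⟩
  · by_cases hl : l ∈ d.L
    · exact h.inj ((k1 l hl).symm.trans (e.trans (map_one ι).symm))
    · exact absurd (by rw [map_inv, ← eq_inv_of_mul_eq_one_left ((k2 l hl).symm.trans e)]) (h.tr l⁻¹)
  · by_cases hl : l ∈ d.L
    · exact h.tr l ((k1 l hl).symm.trans e)
    · rw [k2 l hl, mul_eq_left, ← map_one ι] at e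
      exact hl (h.inj e ▸ one_mem _)
  · obtain ⟨o, ho, l, e⟩ := h.cen g hg
    refine ⟨o, ho, l, ?_⟩
    by_cases hl : l ∈ d.L
    · rwa [k1 l hl]
    · rwa [k2 l hl, or_comm, mul_assoc o, ← mul_assoc t, h.t2, one_mul, ← mul_assoc]

theorem exists_Qt (O : Subgroup G) :
    ∃ π : G → normalizer (O : Set G) ⧸ O.subgroupOf (normalizer (O : Set G)), Qt O π := by
  classical
  refine ⟨fun g => if hg : g ∈ normalizer (O : Set G) then QuotientGroup.mk ⟨g, hg⟩ else 1,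
    fun x hx y hy => ?_, fun q => ?_, fun g hg => ?_⟩
  · rw [dif_pos hx, dif_pos hy, dif_pos (mul_mem hx hy)]; rfl
  · obtain ⟨g, rfl⟩ := QuotientGroup.mk_surjective q
    exact ⟨g, g.2, dif_pos g.2⟩
  · rw [dif_pos hg, QuotientGroup.eq_one_iff, mem_subgroupOf]

theorem Hy.memN (h : Hy d ι t O) : t ∈ normalizer (O : Set G) ∧ ∀ l, ι l ∈ normalizer (O : Set G) :=
  ⟨mem_normalizer_of_conj_mem fun o ho => by rwa [← h.Ot o ho, mul_inv_cancel_right],
    fun l => mem_normalizer_of_conj_mem (h.On l)⟩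

theorem Hy.quot {X : Type*} [Group X] {π : G → X} (h : Hy d ι t O) (q : Qt O π) :
    ∃ κ : A →* X, (∀ l, κ l = π (ι l)) ∧ Hy d κ (π t) ⊥ := by
  obtain ⟨nt, nl⟩ := h.memN
  let κ : A →* X := MonoidHom.mk' (fun l => π (ι l)) fun l m => by rw [map_mul, q.mul _ (nl l) _ (nl m)]
  have k : ∀ l, κ l = π (ι l) := fun _ => rfl
  have t2 : π t * π t = 1 := by rw [← q.mul _ nt _ nt, h.t2, q.ker _ (one_mem _)]; exact one_mem _
  have ti := inv_eq_of_mul_eq_one_right h.t2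
  refine ⟨κ, k, h.af, (injective_iff_map_eq_one κ).2 fun l e => ?_, t2, fun l e => ?_,
    fun l => by rw [k, ← q.mul _ nt _ (nl l), ← q.mul _ (nl l) _ nt, h.tc], by simp, by simp, by simp, by simp,
    fun x hx => ?_⟩
  · exact (h.uniq (inv_mem ((q.ker _ (nl l)).1 e)) (inv_mul_cancel _)).2
  · have := (q.ker _ (mul_mem (nl l) nt)).1 (by rw [q.mul _ (nl l) _ nt, ← k, e, t2])
    exact h.uniq' (inv_mem this) l (by rw [mul_inv_rev, inv_mul_cancel_right, ti])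
  · obtain ⟨g, hg, rfl⟩ := q.surj x
    have n1 := mul_mem (mul_mem hg nt) (inv_mem hg)
    have e1 : π (g * t * g⁻¹) = π t := mul_right_cancel (b := π g) (by
      rw [← q.mul _ n1 _ hg, inv_mul_cancel_right, q.mul _ hg _ nt, hx])
    have ho := (q.ker _ (mul_mem n1 nt)).1 (by rw [q.mul _ n1 _ nt, e1, t2])
    have e2 := H8.eq_one_of_sq_of_odd (h.oddO ho) (by
      rw [mul_assoc _ t, ← h.Ot _ ho, mul_assoc _ t t, h.t2, mul_one, conj_mul, h.t2, mul_one, mul_inv_cancel])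
    rw [mul_eq_one_iff_eq_inv, ti, mul_inv_eq_iff_eq_mul] at e2
    clear ho
    obtain ⟨o, ho, l, rfl | rfl⟩ := h.cen g e2 <;> have no := le_normalizer ho
    · exact ⟨1, one_mem _, l, .inl (by rw [q.mul _ no _ (nl l), (q.ker _ no).2 ho, k])⟩
    · exact ⟨1, one_mem _, l, .inr (by rw [q.mul _ (mul_mem no nt) _ (nl l), q.mul _ no _ nt, (q.ker _ no).2 ho, k])⟩

end Cfsg.Agent.MS
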